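import Cfsg.Agent.Chevalley.Elements

/-!
Tabulated data of one step of a chain of radicals which are abelian modulo a central part, and
decidable checks on the tables. The action of the Levi roots on the radical is stored in a table,
so that only the table itself is compared with the commutator formula.
-/

set_option autoImplicit false

namespace CfsgLib.E8Deg

open Cfsg.Lie

/-- One step. -/
structure Step where
  /-- the roots of the radical, increasing -/
  S : List ℕ
  /-- roots acting trivially -/
  ctr : List ℕ
  /-- the roots of the Levi factor -/
  lev : List ℕ
  /-- the nodes of the Levi factor -/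
  nodes : List ℕ
  /-- the roots of the group normalising the range -/
  prev : List ℕ
  /-- a table of bytes at the positions `64 β + r`, for a root `β` and a coordinate `r`: zero, or
  `2 k + 1` and `2 k + 2` for the target coordinate `k` and the coefficients `1` and `-1` -/
  act : ℕ
  /-- a table of bytes at the positions `64 s + r`, for coordinates `s`, `r`: one more than the
  moving root, or zero -/
  betT : ℕ
  /-- for each coordinate: two moving roots and their sources -/
  psiW : List (ℕ × ℕ × ℕ × ℕ)
  /-- for each node the induced permutation of the coordinates -/
  perm : List (List ℕ)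
  /-- a word in `nodes` sending the coordinate with the given index to the highest one -/
  words : List (List ℕ)
  /-- a root pairing to one with the highest radical root -/
  gam : ℕ
  /-- a root of the Levi factor -/
  beta : ℕ
  /-- witnesses for the triviality of the character of the stabiliser -/
  wit : List (Bool × ℕ × ℕ)

variable (D : ChevalleyDatum) (st : Step)

/-- The commutator terms, when all chains have length at most one. -/
def comm1 (r s : ℕ) : List (ℕ × ℤ × ℕ × ℕ) := (D.chainEntry r s).map fun e => (e.1, e.2, 1, 1)

/-- Check: all chains have length at most one. -/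
def chkSimple : Bool := D.chain.toList.all fun row => row.toList.all fun e => decide (e.2.size ≤ 1)

theorem commTerms_eq (h : chkSimple D = true) (r s : ℕ) : D.commTerms r s = comm1 D r s := by
  have hlen : ∀ a b, (D.chainEntry a b).length ≤ 1 := by
    intro a b
    simp only [chkSimple, List.all_eq_true, decide_eq_true_eq] at h
    unfold ChevalleyDatum.chainEntry
    split
    · simp
    · next e he =>
      refine h (D.chain.getD a #[]) ?_ e (List.mem_of_find?_eq_some he)
      by_cases ha : a < D.chain.size
      · rw [Array.getD_eq_getD_getElem?, Array.getElem?_eq_getElem ha, Option.getD_some]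
        exact Array.getElem_mem_toList ha
      · rw [Array.getD_eq_getD_getElem?, Array.getElem?_eq_none (by omega)] at he
        simp at he
  have hnone : ∀ a b i, 2 ≤ i → D.chainRoot a b i = none := fun a b i hi => by
    rw [ChevalleyDatum.chainRoot, List.getElem?_eq_none (by have := hlen a b; omega), Option.map_none]
  have h1 := hlen r s
  simp only [ChevalleyDatum.commTerms, hnone _ _ 2 le_rfl, hnone _ _ 3 (by norm_num),
    Option.bind_none, Option.map_none, comm1]
  simp only [ChevalleyDatum.chainRoot, ChevalleyDatum.chainM]
  rcases hE : D.chainEntry r s with _ | ⟨e, _ | ⟨e', l⟩⟩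
  · simp
  · simp
  · rw [hE] at h1; simp at h1

/-- The coordinates. -/
abbrev Step.Co : Type := Fin st.S.length

/-- The root of a coordinate. -/
def Step.root (r : st.Co) : ℕ := st.S.get r

/-- An entry of the table. -/
def Step.entry (β : ℕ) (r : st.Co) : ℕ × ℤ :=
  let c := st.act / 256 ^ (64 * β + r.1) % 256
  if c = 0 then (0, 0) else ((c - 1) / 2, if c % 2 = 1 then 1 else -1)

/-- The matrix of the nilpotent action of `x_β` on the radical. -/
def Step.nCoef (_D : ChevalleyDatum) (β : ℕ) (k r : st.Co) : ℤ :=
  if (st.entry β r).1 = k.1 then (st.entry β r).2 else 0

/-- The target of a move satisfies a condition. -/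
def Step.onTarget (β : ℕ) (r : st.Co) (c : st.Co → Bool) : Bool :=
  decide ((st.entry β r).2 = 0) || if h : (st.entry β r).1 < st.S.length then c ⟨_, h⟩ else false

theorem Step.onTarget_spec {β : ℕ} {r : st.Co} {c : st.Co → Bool} (h : st.onTarget β r c = true)
    {k : st.Co} (hk : st.nCoef D β k r ≠ 0) : c k = true := by
  unfold Step.nCoef at hk
  split_ifs at hk with he
  · simp only [Step.onTarget, Bool.or_eq_true, decide_eq_true_eq] at h
    rcases h with h | h
    · exact absurd h hk
    · split_ifs at h with hlt
      convert h using 2
      exact Fin.ext he.symm
  · exact absurd rfl hk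

/-- The root moving coordinate `s` onto coordinate `r`. -/
def Step.bet (_D : ChevalleyDatum) (s r : st.Co) : Option ℕ :=
  let p := st.betT / 256 ^ (64 * s.1 + r.1) % 256
  if p = 0 then none else some (p - 1)

/-- Neighbours. -/
def Step.nbr (s r : st.Co) : Bool := (st.bet D s r).isSome

/-- Lower neighbours. -/
def Step.low (s : st.Co) : List st.Co := (List.finRange _).filter fun r => decide (r < s) && st.nbr D s r

/-- A root mover is fixing a coordinate vector. -/
def Step.fixes (β : ℕ) (s : st.Co) : Bool :=
  (List.finRange _).all fun r => decide (st.nCoef D β s r = 0)

/-- The image of a coordinate under a word. -/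
def Step.pimg (w : List ℕ) (r : ℕ) : ℕ := w.foldr (fun i x => (st.perm.getD i []).getD x 0) r

/-- Check: shape, apart from the chains. -/
def chkShape0 : Bool :=
  (st.S.all fun r => decide (r < D.nroots)) && (st.lev.all fun r => decide (r < D.nroots)) &&
  (st.lev.all fun r => st.prev.contains r) && (st.S.all fun r => st.prev.contains r) &&
  (st.ctr.all fun r => decide (r < D.nroots)) &&
  ((List.finRange _).all fun r => (List.finRange _).all fun r' =>
    (!decide (r < r')) || (decide (st.root r' ≠ st.root r) && decide (st.root r' ≠ D.neg (st.root r)) &&
      match comm1 D (st.root r) (st.root r') with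
      | [] => true
      | [(x, _, 1, 1)] => st.ctr.contains x
      | _ => false))

/-- Check: shape. -/
def chkShape : Bool := chkSimple D && chkShape0 D st

theorem chkShape_of (h : chkSimple D = true) (h0 : chkShape0 D st = true) : chkShape D st = true := by
  rw [chkShape, h, h0]; rfl

/-- Check: the table is the action of the Levi roots on the radical. -/
def chkNormalAt (β : ℕ) : Bool :=
  (List.finRange _).all fun (r : st.Co) =>
    decide (β ≠ st.root r) && decide (β ≠ D.neg (st.root r)) &&
    if (st.entry β r).2 = 0 then (comm1 D (st.root r) β).isEmpty
    else decide ((st.entry β r).2 = 1 ∨ (st.entry β r).2 = -1) &&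
      st.onTarget β r fun k =>
        decide (comm1 D (st.root r) β = [(st.root k, -(st.entry β r).2, 1, 1)]) &&
          decide ((st.entry β k).2 = 0)

/-- Check: the table is the action, for all Levi roots. -/
def chkNormal : Bool := st.lev.all (chkNormalAt D st)

theorem chkNormal_of (n : ℕ) (h1 : ∀ β ∈ st.lev.take n, chkNormalAt D st β = true)
    (h2 : ∀ β ∈ (st.lev.drop n).take n, chkNormalAt D st β = true)
    (h3 : ∀ β ∈ (st.lev.drop n).drop n, chkNormalAt D st β = true) : chkNormal D st = true := by
  refine List.all_eq_true.2 fun β hβ => ?_
  rw [← List.take_append_drop n st.lev, List.mem_append,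
    ← List.take_append_drop n (st.lev.drop n), List.mem_append] at hβ
  exact hβ.elim (h1 β) (fun h => h.elim (h2 β) (h3 β))

/-- Check: the moving roots. -/
def chkBet : Bool :=
  (List.finRange _).all fun (s : st.Co) => (List.finRange _).all fun (r : st.Co) =>
    match st.bet D s r with
    | none => true
    | some β => st.lev.contains β && decide (st.nCoef D β s r ≠ 0)

/-- Check: clearing the neighbours of the highest coordinate. -/
def chkClear (top : st.Co) : Bool :=
  (!st.nbr D top top) &&
  (List.finRange _).all fun (r : st.Co) => match st.bet D top r with
    | none => true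
    | some β => (List.finRange _).all fun (r' : st.Co) => st.onTarget β r' fun k =>
        decide (r' ≠ top) && (!st.nbr D top r' || (decide (k = top) && decide (r' = r)))

/-- Check: two root moves of a remaining coordinate. -/
def chkPsi (top : st.Co) : Bool :=
  (List.finRange _).all fun (u : st.Co) => decide (u = top) || st.nbr D top u ||
    let e := st.psiW.getD u.1 (0, 0, 0, 0)
    if hv : e.2.2.1 < st.S.length then if hw : e.2.2.2 < st.S.length then
      let v : st.Co := ⟨e.2.2.1, hv⟩
      let w : st.Co := ⟨e.2.2.2, hw⟩
      st.lev.contains e.1 && st.lev.contains e.2.1 &&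
      decide (st.nCoef D e.1 u v ≠ 0) && decide (st.nCoef D e.2.1 u w ≠ 0) &&
      decide (v ≠ w) && (!decide (v = top)) && (!decide (w = top)) &&
      let z : st.Co → Bool := fun j => st.nbr D top j || (decide (u < j) && !decide (j = top))
      (List.finRange _).all fun (r' : st.Co) =>
        (st.onTarget e.1 r' fun k =>
          (z k || (decide (r' ≠ top) && decide (r' ≠ u) && (!z r' || decide (r' = v)) &&
            !st.nbr D top r')) && (decide (r' ≠ v) || decide (k = u))) &&
        (st.onTarget e.2.1 r' fun k =>
          ((z k && !decide (k = v)) || (decide (r' ≠ top) && decide (r' ≠ v) && !st.nbr D top r')) &&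
            (decide (r' ≠ w) || decide (k = u)))
    else false else false

/-- Check: the permutations of the nodes. -/
def chkPerm : Bool :=
  st.nodes.all fun i => decide (i < D.rank) && st.prev.contains (D.simple i) &&
    st.prev.contains (D.neg (D.simple i)) &&
    (List.finRange _).all fun (r : st.Co) =>
      if h : (st.perm.getD i []).getD r.1 0 < st.S.length then
        decide (D.reflectRoot i (st.root r) = st.root ⟨_, h⟩)
      else false

/-- Check: the words. -/
def chkWords (top : st.Co) : Bool :=
  (List.finRange _).all fun (s : st.Co) =>
    let w := st.words.getD s.1 []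
    (w.all fun i => st.nodes.contains i) && decide (st.pimg w s.1 = top.1) &&
    (List.finRange _).all fun (r : st.Co) =>
      if h : st.pimg w r.1 < st.S.length then (!st.nbr D top ⟨_, h⟩) || st.nbr D s r else false

/-- Check: lowering from each coordinate. -/
def chkLow : Bool :=
  (List.finRange _).all fun (s : st.Co) => (List.finRange _).all fun (r : st.Co) =>
    decide (¬ r < s) || match st.bet D s r with
    | none => true
    | some β => (List.finRange _).all fun (r' : st.Co) => st.onTarget β r' fun k =>
        decide (r' < k) && ((!(decide (r' < s) && st.nbr D s r') || decide (s < k)) ||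
          (decide (k = s) && decide (r' = r)))

/-- Check: the torus scales the highest coordinate. -/
def chkGam (top : st.Co) : Bool :=
  decide (st.gam < D.nroots) &&
    decide (D.pairing st.gam (st.root top) = 1 ∨ D.pairing st.gam (st.root top) = -1)

/-- Check: the root `beta`. -/
def chkBeta : Bool :=
  st.lev.contains st.beta &&
  ((List.finRange _).all fun (s : st.Co) => (st.low D s).all fun r =>
    match st.bet D s r with
    | none => true
    | some β => decide (β = st.beta) || (decide (β ≠ D.neg st.beta) &&
        (comm1 D st.beta β).isEmpty))

/-- Check: the witnesses for the characters of stabilisers; `split` asks for commutators only. -/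
def chkWit (split : Bool) : Bool :=
  (List.finRange _).all fun (s : st.Co) => (!st.fixes D st.beta s) ||
    let e := st.wit.getD s.1 (false, 0, 0)
    if e.1 then
      st.lev.contains e.2.1 && st.lev.contains e.2.2 && st.fixes D e.2.1 s && st.fixes D e.2.2 s &&
      decide (e.2.2 ≠ e.2.1) && decide (e.2.2 ≠ D.neg e.2.1) &&
      match comm1 D e.2.1 e.2.2 with
      | [(x, C, 1, 1)] => decide (x = st.beta) && decide (C = 1 ∨ C = -1)
      | _ => false
    else (!split) && decide (e.2.1 < D.nroots) && decide (D.pairing e.2.1 (st.root s) = 0) &&
      decide (D.pairing e.2.1 st.beta = 1 ∨ D.pairing e.2.1 st.beta = -1)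

/-- The number of radical roots not fixed by `beta`, weighted by their cells. -/
def Step.movedList : List st.Co := (List.finRange _).filter fun s => !st.fixes D st.beta s

/-- The number of neighbours of the highest coordinate. -/
def Step.n1 (top : st.Co) : ℕ := ((List.finRange _).filter fun r => st.nbr D top r).length

/-- All checks of a step which do not involve `beta`. -/
structure Ok (top : st.Co) : Prop where
  shape : chkShape D st = true
  normal : chkNormal D st = true
  bet : chkBet D st = true
  clr : chkClear D st top = true
  psi : chkPsi D st top = true
  perm : chkPerm D st = true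
  words : chkWords D st top = true
  low : chkLow D st = true
  gam : chkGam D st top = true

end CfsgLib.E8Deg
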