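import Mathlib

/-!
No degree just below the bound divides the class size times a power of the field size.
-/

set_option autoImplicit false

namespace CfsgLib.E8Deg

/-- The class size of a root element. -/
def classNum (q : ℕ) : ℕ := (q ^ 12 + 1) * (q ^ 10 + 1) * (q ^ 6 + 1) * (q ^ 30 - 1)

/-- The bound. -/
def degNum (q : ℕ) : ℕ := q * (q ^ 12 + 1) * (q ^ 10 + 1) * (q ^ 6 + 1)

theorem degNum_eq (q : ℕ) :
    degNum q = q ^ 29 + q ^ 23 + q ^ 19 + q ^ 17 + q ^ 13 + q ^ 11 + q ^ 7 + q := by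
  rw [degNum]; ring

theorem small_field :
    ∀ q < 9, 3 ≤ q → ∀ j < 9, 0 < j → ¬ (degNum q - j) ∣ classNum q * q ^ 29 := by
  decide +kernel

theorem two_field :
    ∀ i < 34, ¬ (545925216 + i) ∣ classNum 2 * 2 ^ 29 := by
  decide +kernel

theorem large_field {q k : ℕ} (hpp : ∃ p e, p.Prime ∧ q = p ^ e) (h9 : 9 ≤ q)
    (hlt : k < degNum q) (hge : degNum q ≤ k + 8) :
    ¬ k ∣ classNum q * q ^ 29 := by
  intro hdvd
  obtain ⟨j, hj⟩ := Nat.exists_eq_add_of_le hlt.le
  have hj0 : 0 < j := by omega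
  have hj8 : j ≤ 8 := by omega
  set C := q ^ 30 - 1 with hC
  have h1 : k ∣ j * C * q ^ 28 := by
    have e : classNum q * q ^ 29 = k * (C * q ^ 28) + j * C * q ^ 28 := by
      calc _ = degNum q * (C * q ^ 28) := by rw [classNum, degNum, hC]; ring
        _ = (k + j) * (C * q ^ 28) := by rw [hj]
        _ = _ := by ring
    rw [e] at hdvd
    exact (Nat.dvd_add_right (Dvd.intro _ rfl)).1 hdvd
  have hqb : q ∣ k + j := by
    rw [← hj, degNum, mul_assoc, mul_assoc]
    exact dvd_mul_right _ _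
  have h2 : Nat.gcd k (q ^ 28) ∣ j := by
    obtain ⟨p, e, hp, rfl⟩ := hpp
    obtain ⟨a, -, ha⟩ := (Nat.dvd_prime_pow hp).1
      (show Nat.gcd k ((p ^ e) ^ 28) ∣ p ^ (e * 28) by rw [pow_mul]; exact Nat.gcd_dvd_right _ _)
    have hak : p ^ a ∣ k := ha ▸ Nat.gcd_dvd_left _ _
    have hae : a < e := by
      by_contra hc
      push Not at hc
      have := Nat.le_of_dvd hj0 ((Nat.dvd_add_right ((pow_dvd_pow p hc).trans hak)).1 hqb)
      omega
    rw [ha]
    exact (Nat.dvd_add_right hak).1 ((pow_dvd_pow p hae.le).trans hqb)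
  have h3 : k ∣ j * C * j := by
    have h : k ∣ Nat.gcd (k * (j * C)) (q ^ 28 * (j * C)) :=
      Nat.dvd_gcd (dvd_mul_right _ _) (by rw [mul_comm (q ^ 28)]; exact h1)
    rw [Nat.gcd_mul_right, mul_comm] at h
    exact h.trans (Nat.mul_dvd_mul_left _ h2)
  set X := q ^ 24 + q ^ 20 + q ^ 18 + q ^ 14 + q ^ 12 + q ^ 8 + q ^ 2 + 1 with hX
  have hC1 : C + 1 = q ^ 30 := Nat.sub_add_cancel (Nat.one_le_pow _ _ (by omega))
  have m : ∀ i, i ≤ 24 → q ^ i ≤ q ^ 24 := fun i hi => Nat.pow_le_pow_right (by omega) hi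
  have hqX : q * j < X := by
    have h8 : q * j ≤ q * q := Nat.mul_le_mul_left _ (by omega)
    have : q * q ≤ q ^ 24 := by rw [← sq]; exact m 2 (by norm_num)
    omega
  have he : q * k = C + (X - q * j) := by
    have : q * k + q * j = C + X := by
      calc q * k + q * j = q * degNum q := by rw [hj]; ring
        _ = (C + 1) + (q ^ 24 + q ^ 20 + q ^ 18 + q ^ 14 + q ^ 12 + q ^ 8 + q ^ 2) := by
          rw [hC1, degNum_eq]; ring
        _ = _ := by rw [hX]; ring
    omega
  have h4 : k ∣ j * j * (X - q * j) := by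
    have : k ∣ j * C * j + j * j * (X - q * j) :=
      ⟨j * j * q, by
        calc j * C * j + j * j * (X - q * j) = j * j * (C + (X - q * j)) := by ring
          _ = j * j * (q * k) := by rw [he]
          _ = _ := by ring⟩
    exact (Nat.dvd_add_right h3).1 this
  have h5 := Nat.le_of_dvd (Nat.mul_pos (Nat.mul_pos hj0 hj0) (Nat.sub_pos_of_lt hqX)) h4
  have h6 : j * j * (X - q * j) ≤ 64 * X :=
    Nat.mul_le_mul (Nat.mul_le_mul hj8 hj8) (Nat.sub_le _ _)
  have hX8 : X ≤ 8 * q ^ 24 := by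
    have := m 20 (by norm_num); have := m 18 (by norm_num); have := m 14 (by norm_num)
    have := m 12 (by norm_num); have := m 8 (by norm_num); have := m 2 (by norm_num)
    have := m 0 (by norm_num)
    rw [pow_zero] at this
    omega
  have h7 : 1024 * q ^ 24 ≤ q ^ 29 := by
    calc 1024 * q ^ 24 = 4 ^ 5 * q ^ 24 := by norm_num
      _ ≤ q ^ 5 * q ^ 24 := Nat.mul_le_mul_right _ (Nat.pow_le_pow_left (by omega) 5)
      _ = q ^ 29 := by ring
  have hb := degNum_eq q
  have : 0 < q ^ 24 := pow_pos (by omega) _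
  omega

/-- No admissible degree below the bound. -/
theorem no_degree {q k : ℕ} (hpp : ∃ p e, p.Prime ∧ q = p ^ e) (hq : 2 ≤ q)
    (hlt : k < degNum q) (h2 : q = 2 → 545925216 ≤ k) (h3 : 3 ≤ q → degNum q ≤ k + 8) :
    ¬ k ∣ classNum q * q ^ 29 := by
  rcases eq_or_lt_of_le hq with h | h
  · subst h
    obtain ⟨i, rfl⟩ := Nat.exists_eq_add_of_le (h2 rfl)
    exact two_field i (by norm_num [degNum] at hlt ⊢; omega)
  · rcases le_or_gt 9 q with h9 | h9
    · exact large_field hpp h9 hlt (h3 h)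
    · obtain ⟨j, hj⟩ := Nat.exists_eq_add_of_le hlt.le
      have hs := small_field q h9 h j (by have := h3 h; omega) (by omega)
      rw [hj, Nat.add_sub_cancel] at hs
      exact hs

end CfsgLib.E8Deg
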