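import Cfsg.Agent.E8Deg.Struct

/-!
Conjugation by Weyl words, the trivial projection, and the count of the weights with nonzero highest
coordinate from a deficiency.
-/

set_option autoImplicit false
set_option linter.unusedSectionVars false

open scoped Classical

noncomputable section

namespace CfsgLib.E8Deg

open Matrix Cfsg.Lie CfsgLib.Chevalley

variable {D : ChevalleyDatum} {S : Sys D} {F : Type*} [Field F] [Fintype F] {k : ℕ} {st : Step}
  {top : st.Co} {R : ↥(D.group F) →* Matrix (Fin k) (Fin k) ℂ} {P : Matrix (Fin k) (Fin k) ℂ}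
  {ψ : AddChar F ℂ}

/-- The whole range is good for a step without central roots. -/
theorem good_one (S : Sys D) (R : ↥(D.group F) →* Matrix (Fin k) (Fin k) ℂ) {st : Step}
    (h : st.ctr = []) : Good S R st 1 :=
  ⟨one_mul 1, fun _ _ _ => by rw [one_mul, mul_one], fun _ => by rw [one_mul, mul_one],
    fun z hz => absurd (h ▸ hz) List.not_mem_nil⟩

/-- A step recording the full group. -/
def allStep (D : ChevalleyDatum) : Step where
  S := []
  ctr := []
  lev := []
  nodes := []
  prev := List.range D.nroots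
  act := 0
  betT := 0
  psiW := []
  perm := []
  words := []
  gam := 0
  beta := 0
  wit := []

theorem exists_conj (S : Sys D) (R : ↥(D.group F) →* Matrix (Fin k) (Fin k) ℂ) (w : List ℕ)
    (hw : ∀ i ∈ w, i < D.rank) :
    ∃ g : ↥(D.group F), ∀ r < D.nroots, ∃ c : Fˣ, ∀ t : F,
      g * gx S r t = gx S (wimg D w r) ((c : F) * t) * g := by
  obtain ⟨g, -, hg⟩ := exists_word S (R := R) (P := 1) (st := allStep D)
    (good_one S R rfl).root w (fun i hi => ⟨hw i hi, List.mem_range.2 (S.wf.simple_lt i (hw i hi)),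
      List.mem_range.2 (S.wf.neg_lt _ (S.wf.simple_lt i (hw i hi)))⟩)
  exact ⟨g, hg⟩

theorem trace_conj {g x y : ↥(D.group F)} (h : g * x = y * g) :
    (R y).trace = (R x).trace := by
  rw [show y = g * x * g⁻¹ from by rw [h, mul_inv_cancel_right], map_mul, map_mul,
    Matrix.trace_mul_cycle, ← map_mul R g⁻¹ g, inv_mul_cancel, map_one, one_mul]

variable (ok : Ok D st top) (hG : Good S R st P) (hp : ProjHyp (uM S ok.shape hG) ψ P)

include hG in
/-- The number of weights with nonzero highest coordinate, from the deficiency. -/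
theorem sum_top_of_deficiency {n m : ℕ}
    (hδ : ∀ t : F, t ≠ 0 →
      P.trace - (R (gx S (st.root top) t) * P).trace = (m : ℂ) * (Fintype.card F : ℂ) ^ (n + 1)) :
    ∑ χ ∈ Finset.univ.filter (fun χ : st.Co → F => χ top ≠ 0), mult hp χ =
      (Fintype.card F - 1) * (m * Fintype.card F ^ n) := by
  set q := Fintype.card F with hq
  have h2 : 2 ≤ q := Fintype.one_lt_card
  set T := Finset.univ.filter (fun χ : st.Co → F => χ top ≠ 0) with hT
  have e1 : ∑ t : F, ∑ φ : st.Co → F, (1 - ψ (t * φ top)) * (mult hp φ : ℂ) =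
      (q : ℂ) * ∑ χ ∈ T, (mult hp χ : ℂ) := by
    rw [Finset.sum_comm, Finset.mul_sum, hT, Finset.sum_filter]
    refine Finset.sum_congr rfl fun φ _ => ?_
    rw [← Finset.sum_mul]
    split_ifs with h0
    · have hs : ∑ c : F, ψ (c * φ top) = 0 :=
        (Equiv.sum_comp (Equiv.mulRight₀ (φ top) h0) (fun c => ψ c)).trans
          (AddChar.sum_eq_zero_of_ne_one (fun e => hp.psi (by rw [e]; rfl)))
      rw [Finset.sum_sub_distrib, Finset.sum_const, Finset.card_univ, nsmul_eq_mul, mul_one, hs,
        sub_zero]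
    · rw [not_not.1 h0]; simp
  have e2 : ∑ t : F, ∑ φ : st.Co → F, (1 - ψ (t * φ top)) * (mult hp φ : ℂ) =
      ((q - 1 : ℕ) : ℂ) * ((m : ℂ) * (q : ℂ) ^ (n + 1)) := by
    rw [← Finset.add_sum_erase _ _ (Finset.mem_univ (0 : F)),
      Finset.sum_eq_zero (fun φ _ => by rw [zero_mul, AddChar.map_zero_eq_one, sub_self, zero_mul]),
      zero_add, Finset.sum_congr rfl (g := fun _ => (m : ℂ) * (q : ℂ) ^ (n + 1))
        (fun t ht => by rw [← deficiency_sum ok hG hp]; exact hδ t (Finset.ne_of_mem_erase ht)),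
      Finset.sum_const, Finset.card_erase_of_mem (Finset.mem_univ _), Finset.card_univ, nsmul_eq_mul]
  rw [e2, pow_succ] at e1
  have hq0 : (q : ℂ) ≠ 0 := Nat.cast_ne_zero.2 (by omega)
  have e3 : ((q - 1 : ℕ) : ℂ) * ((m : ℂ) * (q : ℂ) ^ n) = ∑ χ ∈ T, (mult hp χ : ℂ) :=
    mul_right_cancel₀ hq0 (by linear_combination e1)
  exact_mod_cast e3.symm

end CfsgLib.E8Deg
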