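import Cfsg.Agent.E8Deg.Clear

/-!
Cells of weights, transport of a coordinate to the highest one, and the structure of the weights
when no impure weight occurs.
-/

set_option autoImplicit false
set_option linter.unusedSectionVars false

open scoped Classical

noncomputable section

namespace CfsgLib.E8Deg

open Matrix Cfsg.Lie CfsgLib.Chevalley

variable {D : ChevalleyDatum} {S : Sys D} {F : Type*} [Field F] {k : ℕ} {st : Step} {top : st.Co}

theorem low_cases (ok : Ok D st top) {s r : st.Co} (hlt : r < s) (hr : st.nbr D s r = true)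
    {j r' : st.Co} (h : st.nCoef D (betF D st s r) j r' ≠ 0) :
    r' < j ∧ (r' < s → st.nbr D s r' = true → s < j ∨ (j = s ∧ r' = r)) := by
  have hc := ok.low
  simp only [chkLow, List.all_eq_true] at hc
  have h1 := hc s (List.mem_finRange _) r (List.mem_finRange _)
  rw [(bet_spec ok hr).1] at h1
  simp only [Bool.or_eq_true, decide_eq_true_eq, List.all_eq_true] at h1
  have h2 := Step.onTarget_spec D st ((h1.resolve_left (not_not.2 hlt)) r' (List.mem_finRange _)) h
  simp only [Bool.or_eq_true, Bool.and_eq_true, decide_eq_true_eq, Bool.not_eq_true'] at h2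
  obtain ⟨h3, h4⟩ := h2
  refine ⟨h3, fun ha hb => ?_⟩
  rcases h4 with (h4 | h4) | h4
  · simp [ha, hb] at h4
  · exact Or.inl h4
  · exact Or.inr h4

theorem lmove_low (ok : Ok D st top) (s : st.Co) (c : F) : ∀ (l : List (st.Co × F)),
    (∀ e ∈ l, e.1 < s ∧ st.nbr D s e.1 = true) →
      lmove D st s l (Pi.single s c) s = c ∧
      (∀ r, s < r → lmove D st s l (Pi.single s c) r = 0) ∧
      ∀ r, r < s → st.nbr D s r = true → lmove D st s l (Pi.single s c) r =
        -((l.map fun e => if e.1 = r then e.2 * coefF D F st s e.1 else 0).sum * c)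
  | [], _ => ⟨Pi.single_eq_same _ _, fun r hr => Pi.single_eq_of_ne hr.ne' _,
      fun r hr _ => by
        simp only [lmove, List.foldr_nil, List.map_nil, List.sum_nil, zero_mul, neg_zero]
        exact Pi.single_eq_of_ne hr.ne _⟩
  | e :: l, h => by
    rw [List.forall_mem_cons] at h
    obtain ⟨ih1, ih2, ih3⟩ := lmove_low ok s c l h.2
    refine ⟨?_, fun r hr => ?_, fun r hr hn => ?_⟩
    · rw [lmove_cons, bx, Finset.sum_eq_zero, mul_zero, sub_zero, ih1]
      intro j _
      by_cases hz : st.nCoef D (betF D st s e.1) j s = 0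
      · simp [hz]
      · rw [ih2 j (low_cases ok h.1.1 h.1.2 hz).1, mul_zero]
    · rw [lmove_cons, bx, Finset.sum_eq_zero, mul_zero, sub_zero, ih2 r hr]
      intro j _
      by_cases hz : st.nCoef D (betF D st s e.1) j r = 0
      · simp [hz]
      · rw [ih2 j (hr.trans (low_cases ok h.1.1 h.1.2 hz).1), mul_zero]
    · rw [lmove_cons, bx, ih3 r hr hn, List.map_cons, List.sum_cons, Finset.sum_eq_single s]
      · rw [ih1]
        split_ifs with he
        · subst he; rw [coefF]; ring
        · have hz : st.nCoef D (betF D st s e.1) s r = 0 := by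
            by_contra hne
            rcases (low_cases ok h.1.1 h.1.2 hne).2 hr hn with h' | h'
            · exact lt_irrefl _ h'
            · exact he h'.2.symm
          rw [hz]; push_cast; ring
      · intro j _ hj
        by_cases hz : st.nCoef D (betF D st s e.1) j r = 0
        · simp [hz]
        · rcases (low_cases ok h.1.1 h.1.2 hz).2 hr hn with h' | h'
          · rw [ih2 j h', mul_zero]
          · exact absurd h'.1 hj
      · intro h'; exact absurd (Finset.mem_univ _) h'

/-- The index of a cell. -/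
abbrev CellIdx (D : ChevalleyDatum) (F : Type*) [Field F] (st : Step) : Type _ :=
  (s : st.Co) × Fˣ × ({r : st.Co // r < s ∧ st.nbr D s r = true} → F)

/-- The list of moves of a cell. -/
def cellList (i : CellIdx D F st) : List (st.Co × F) :=
  (Finset.univ : Finset {r : st.Co // r < i.1 ∧ st.nbr D i.1 r = true}).toList.map fun r =>
    (r.1, -(i.2.2 r) / (coefF D F st i.1 r.1 * i.2.1))

/-- The weight of a cell. -/
def cell (i : CellIdx D F st) : st.Co → F := lmove D st i.1 (cellList i) (Pi.single i.1 (i.2.1 : F))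

theorem cellList_mem (i : CellIdx D F st) :
    ∀ e ∈ cellList i, e.1 < i.1 ∧ st.nbr D i.1 e.1 = true := by
  intro e he
  simp only [cellList, List.mem_map] at he
  obtain ⟨r, -, rfl⟩ := he
  exact r.2

theorem cell_apply (ok : Ok D st top) (i : CellIdx D F st) :
    cell i i.1 = i.2.1 ∧ (∀ r, i.1 < r → cell i r = 0) ∧
      ∀ (r : {r : st.Co // r < i.1 ∧ st.nbr D i.1 r = true}), cell i r.1 = i.2.2 r := by
  obtain ⟨h1, h2, h3⟩ := lmove_low ok i.1 (i.2.1 : F) _ (cellList_mem i)
  refine ⟨h1, h2, fun r => ?_⟩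
  rw [cell, h3 r.1 r.2.1 r.2.2, cellList, List.map_map, ← List.sum_toFinset _ (Finset.nodup_toList _),
    Finset.toList_toFinset]
  simp only [Function.comp_apply, ← Subtype.ext_iff]
  rw [Finset.sum_ite_eq' _ r, if_pos (Finset.mem_univ _)]
  have := coefF_ne_zero (F := F) ok r.2.2
  field_simp

theorem cell_injective (ok : Ok D st top) : Function.Injective (cell (F := F) (D := D) (st := st)) := by
  rintro ⟨s, c, ν⟩ ⟨s', c', ν'⟩ h
  obtain ⟨h1, h2, h3⟩ := cell_apply ok (⟨s, c, ν⟩ : CellIdx D F st)
  obtain ⟨h1', h2', h3'⟩ := cell_apply ok (⟨s', c', ν'⟩ : CellIdx D F st)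
  rcases lt_trichotomy s s' with hl | rfl | hl
  · exact absurd (h1'.symm.trans ((congrFun h s').symm.trans (h2 s' hl))) c'.ne_zero
  · have hc : c = c' := Units.ext (h1.symm.trans ((congrFun h s).trans h1'))
    have hν : ν = ν' := funext fun r => (h3 r).symm.trans ((congrFun h r.1).trans (h3' r))
    rw [hc, hν]
  · exact absurd (h1.symm.trans ((congrFun h s).trans (h2' s hl))) c.ne_zero

theorem cell_ne_zero (ok : Ok D st top) (i : CellIdx D F st) : cell i ≠ 0 := fun h => by
  have := (cell_apply ok i).1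
  rw [h] at this
  exact i.2.1.ne_zero this.symm

theorem card_low (s : st.Co) :
    Fintype.card {r : st.Co // r < s ∧ st.nbr D s r = true} = (st.low D s).length := by
  rw [Fintype.card_subtype, Step.low,
    ← List.toFinset_card_of_nodup ((List.nodup_finRange _).filter _)]
  congr 1
  ext r
  simp

variable [Fintype F]

theorem card_cells_filter (p : st.Co → Bool) :
    (Finset.univ.filter fun i : CellIdx D F st => p i.1 = true).card =
      (Fintype.card F - 1) *
        ((((List.finRange st.S.length).filter p).map fun s => (st.low D s).length).map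
          fun e => Fintype.card F ^ e).sum := by
  rw [show (Finset.univ.filter fun i : CellIdx D F st => p i.1 = true) =
    (Finset.univ.filter fun s : st.Co => p s = true).sigma (fun s => Finset.univ) by ext; simp,
    Finset.card_sigma, List.map_map, ← List.sum_toFinset _ ((List.nodup_finRange _).filter _),
    Finset.mul_sum, show ((List.finRange st.S.length).filter p).toFinset =
      Finset.univ.filter (fun s : st.Co => p s = true) by ext; simp]
  refine Finset.sum_congr rfl fun s _ => ?_
  rw [Finset.card_univ, Fintype.card_prod, Fintype.card_units, Fintype.card_fun, card_low]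
  rfl

theorem card_cells : Fintype.card (CellIdx D F st) = (Fintype.card F - 1) *
    ((((List.finRange st.S.length)).map fun s => (st.low D s).length).map
      fun e => Fintype.card F ^ e).sum := by
  have h := card_cells_filter (D := D) (F := F) (st := st) fun _ => true
  simpa using h

variable {R : ↥(D.group F) →* Matrix (Fin k) (Fin k) ℂ} {P : Matrix (Fin k) (Fin k) ℂ}
  {ψ : AddChar F ℂ}

theorem nodes_ok (ok : Ok D st top) {i : ℕ} (hi : i ∈ st.nodes) :
    (i < D.rank ∧ D.simple i ∈ st.prev ∧ D.neg (D.simple i) ∈ st.prev) ∧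
      ∀ r : st.Co, ∃ r' : st.Co, (st.perm.getD i []).getD r.1 0 = r'.1 ∧
        D.reflectRoot i (st.root r) = st.root r' := by
  have h := ok.perm
  simp only [chkPerm, List.all_eq_true, Bool.and_eq_true, decide_eq_true_eq,
    List.contains_iff_mem] at h
  obtain ⟨⟨⟨a, b⟩, c⟩, d⟩ := h i hi
  refine ⟨⟨a, b, c⟩, fun r => ?_⟩
  have hr := d r (List.mem_finRange _)
  split_ifs at hr with hlt
  exact ⟨⟨_, hlt⟩, rfl, by simpa using hr⟩

theorem pimg_spec (ok : Ok D st top) : ∀ (w : List ℕ) (_ : ∀ i ∈ w, i ∈ st.nodes) (r : st.Co),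
    ∃ r' : st.Co, st.pimg w r.1 = r'.1 ∧ wimg D w (st.root r) = st.root r'
  | [], _, r => ⟨r, rfl, rfl⟩
  | i :: w, hw, r => by
    rw [List.forall_mem_cons] at hw
    obtain ⟨r1, e1, e2⟩ := pimg_spec ok w hw.2 r
    obtain ⟨r2, e3, e4⟩ := (nodes_ok ok hw.1).2 r1
    refine ⟨r2, ?_, ?_⟩
    · show (st.perm.getD i []).getD (st.pimg w r.1) 0 = _
      rw [e1, e3]
    · show D.reflectRoot i (wimg D w (st.root r)) = _
      rw [e2, e4]

/-- Every coordinate can be moved to the highest one. -/
theorem transport (ok : Ok D st top) (hG : Good S R st P) (s : st.Co) :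
    ∃ (g : ↥(D.group F)) (B : (st.Co → F) → (st.Co → F)) (a : F), a ≠ 0 ∧
      Moves R (uM S ok.shape hG) P g B ∧ Function.Injective B ∧ B 0 = 0 ∧
      (∀ φ, B φ top = a * φ s) ∧ (∀ c, B (Pi.single s c) = Pi.single top (a * c)) ∧
      ∀ φ φ', (∀ r, st.nbr D s r = true → φ r = φ' r) →
        ∀ r, st.nbr D top r = true → B φ r = B φ' r := by
  have hw := ok.words
  simp only [chkWords, List.all_eq_true, Bool.and_eq_true, decide_eq_true_eq, List.contains_iff_mem,
    Bool.or_eq_true, Bool.not_eq_true'] at hw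
  obtain ⟨⟨hnodes, himg⟩, hnb⟩ := hw s (List.mem_finRange _)
  set w := st.words.getD s.1 [] with hw'
  have hwn : ∀ i ∈ w, i < D.rank ∧ D.simple i ∈ st.prev ∧ D.neg (D.simple i) ∈ st.prev :=
    fun i hi => (nodes_ok ok (hnodes i hi)).1
  choose σ0 hσp hσ0' using pimg_spec ok w hnodes
  have hσ0 : ∀ r, st.root (σ0 r) = wimg D w (st.root r) := fun r => (hσ0' r).symm
  have hinj : Function.Injective σ0 := fun r r' e =>
    root_inj ok.shape (wimg_inj S w (fun i hi => (hwn i hi).1) (root_lt ok.shape r)
      (root_lt ok.shape r') (by rw [← hσ0 r, ← hσ0 r', e]))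
  let σ := Equiv.ofBijective σ0 (Finite.injective_iff_bijective.1 hinj)
  have hσ : ∀ r, wimg D w (st.root r) = st.root (σ r) := fun r => (hσ0 r).symm
  obtain ⟨g, hgP, hg⟩ := exists_word S hG.root w hwn
  obtain ⟨c, hc⟩ := moves_word S ok.shape hG hgP hσ hg
  have hst : σ s = top := Fin.ext ((hσp s).symm.trans himg)
  have hst' : σ.symm top = s := by rw [← hst, σ.symm_apply_apply]
  refine ⟨g, _, (((c s)⁻¹ : Fˣ) : F), Units.ne_zero _, hc, ?_, ?_, fun φ => ?_, fun b => ?_,
    fun φ φ' h r hr => ?_⟩
  · intro φ φ' h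
    funext r
    have := congrFun h (σ r)
    simpa using this
  · funext r; simp
  · simp [hst']
  · funext r
    by_cases hr : r = top
    · subst hr; simp [hst']
    · rw [Pi.single_eq_of_ne hr, Pi.single_eq_of_ne, mul_zero]
      exact fun e => hr (by rw [← hst, ← e, σ.apply_symm_apply])
  · have h3 := hnb (σ.symm r) (List.mem_finRange _)
    have e : st.pimg w (σ.symm r).1 = r.1 :=
      (hσp _).trans (congrArg Fin.val (σ.apply_symm_apply r))
    rw [dif_pos (by rw [e]; exact r.2)] at h3
    simp only [e, Fin.eta, hr, Bool.not_true, Bool.false_or] at h3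
    rw [h _ h3]

theorem mult_single_top (ok : Ok D st top) (hG : Good S R st P)
    (hp : ProjHyp (uM S ok.shape hG) ψ P) {c : F} (hc : c ≠ 0) :
    mult hp (Pi.single top c) = mult hp (Pi.single top 1) := by
  have hg := ok.gam
  simp only [chkGam, Bool.and_eq_true, decide_eq_true_eq] at hg
  set p := D.pairing st.gam (st.root top) with hpdef
  set μ : Fˣ := (Units.mk0 c hc)⁻¹ ^ p with hμ
  have hpp : p * p = 1 := by rcases hg.2 with e | e <;> rw [e] <;> norm_num
  have e : bt D st (hGam (D := D) st.gam μ) (Pi.single top (1 : F)) = Pi.single top c := by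
    funext r
    by_cases hr : r = top
    · subst hr
      rw [bt, torusVal_hGam S, hμ, ← hpdef, ← _root_.zpow_mul, hpp, _root_.zpow_one, inv_inv,
        Units.val_mk0, Pi.single_eq_same, Pi.single_eq_same, mul_one]
    · rw [bt, Pi.single_eq_of_ne hr, Pi.single_eq_of_ne hr, mul_zero]
  rw [← e, (moves_gt S hG ok.shape _).mult_eq hp]

variable (ok : Ok D st top) (hG : Good S R st P) (hp : ProjHyp (uM S ok.shape hG) ψ P)

include hG in
theorem mult_cell (i : CellIdx D F st) : mult hp (cell i) = mult hp (Pi.single top 1) := by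
  obtain ⟨g, B, a, ha, hB, -, -, -, hsingle, -⟩ := transport ok hG i.1
  rw [cell, (moves_lmove ok hG _ fun e he => (cellList_mem i e he).2).mult_eq hp,
    ← hB.mult_eq hp, hsingle, mult_single_top ok hG hp (mul_ne_zero ha i.2.1.ne_zero)]

include hG in
theorem mult_pure {φ : st.Co → F} (h : Pure D top φ) :
    mult hp φ = mult hp (Pi.single top 1) := by
  rw [← mult_lclear ok hG hp (nuOf top φ) φ, h.2, mult_single_top ok hG hp h.1]

include hG in
theorem exists_top_ne_zero {φ : st.Co → F} (h0 : φ ≠ 0) :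
    ∃ χ : st.Co → F, χ top ≠ 0 ∧ mult hp χ = mult hp φ := by
  obtain ⟨s, hs⟩ := Function.ne_iff.1 h0
  obtain ⟨g, B, a, ha, hB, -, -, htop, -, -⟩ := transport ok hG s
  exact ⟨B φ, by rw [htop]; exact mul_ne_zero ha hs, hB.mult_eq hp φ⟩

include hG in
theorem mult_eq_indicator (hpure : ∀ φ : st.Co → F, φ top ≠ 0 → mult hp φ ≠ 0 → Pure D top φ)
    (hm : mult hp (Pi.single top (1 : F)) = 1) {φ : st.Co → F} (h0 : φ ≠ 0) :
    mult hp φ = if φ ∈ Finset.univ.image (cell (F := F) (D := D) (st := st)) then 1 else 0 := by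
  split_ifs with hc
  · obtain ⟨i, -, rfl⟩ := Finset.mem_image.1 hc
    rw [mult_cell ok hG hp i, hm]
  · by_contra hne
    refine hc (Finset.mem_image.2 ?_)
    have hne' : (Finset.univ.filter fun r => φ r ≠ 0).Nonempty := by
      obtain ⟨r, hr⟩ := Function.ne_iff.1 h0
      exact ⟨r, Finset.mem_filter.2 ⟨Finset.mem_univ _, hr⟩⟩
    set s := (Finset.univ.filter fun r => φ r ≠ 0).max' hne' with hs
    have hφs : φ s ≠ 0 := (Finset.mem_filter.1 (Finset.max'_mem _ hne')).2
    have habove : ∀ r, s < r → φ r = 0 := fun r hr => by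
      by_contra h
      exact absurd (Finset.le_max' _ r (Finset.mem_filter.2 ⟨Finset.mem_univ _, h⟩)) (not_le.2 hr)
    set i : CellIdx D F st := ⟨s, Units.mk0 (φ s) hφs, fun r => φ r.1⟩ with hi
    obtain ⟨c1, c2, c3⟩ := cell_apply ok i
    refine ⟨i, Finset.mem_univ _, ?_⟩
    obtain ⟨g, B, a, ha, hB, hinj, -, htop, -, hnb⟩ := transport ok hG s
    refine hinj (pure_ext ok ?_ ?_ ?_ ?_)
    · refine hpure _ (by rw [htop, c1]; exact mul_ne_zero ha hφs) ?_
      rw [hB.mult_eq hp, mult_cell ok hG hp i, hm]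
      exact one_ne_zero
    · refine hpure _ (by rw [htop]; exact mul_ne_zero ha hφs) ?_
      rw [hB.mult_eq hp]; exact hne
    · rw [htop, htop, c1]; rfl
    · refine hnb _ _ fun r hr => ?_
      rcases lt_trichotomy r s with hl | rfl | hl
      · exact c3 ⟨r, hl, hr⟩
      · rw [c1]; rfl
      · rw [c2 r hl, habove r hl]

end CfsgLib.E8Deg
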