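import Cfsg.Agent.E8Deg.Basic
import Cfsg.Agent.E8Deg.Data.StepAZ
import Cfsg.Agent.Chevalley.Data.SysE8

/-!
The weights of the centre of the Heisenberg radical of type E8: shifts by the radical, and the
divisibility of their multiplicities.
-/

set_option autoImplicit false
set_option linter.unusedSectionVars false

open scoped Classical

noncomputable section

namespace CfsgLib.E8Deg

open Matrix Cfsg.Lie CfsgLib.Chevalley

variable {F : Type*} [Field F] [Fintype F] {k : ℕ}
  (R : ↥(chevE8.group F) →* Matrix (Fin k) (Fin k) ℂ) {ψ : AddChar F ℂ}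

/-- The trivial projection for the centre. -/
theorem gZ : Good sysE8 R stepZ 1 := good_one sysE8 R rfl

/-- The trivial projection for the abelian subgroup. -/
theorem gA : Good sysE8 R stepA 1 := good_one sysE8 R rfl

/-- The parametrised centre. -/
abbrev UZ : Multiplicative (stepZ.Co → F) →* Matrix (Fin k) (Fin k) ℂ :=
  uM sysE8 okZ.shape (gZ R)

theorem hZ (hψ : ψ 1 ≠ 1) : ProjHyp (UZ R) ψ 1 := good_projHyp hψ okZ (gZ R)

/-- The weight space of a character of the centre. -/
def Pc (ψ : AddChar F ℂ) (φ : stepZ.Co → F) : Matrix (Fin k) (Fin k) ℂ := proj (UZ R) ψ 1 φ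

/-- Check: a root commutes with the centre. -/
def chkCent (D : ChevalleyDatum) (r : ℕ) : Bool :=
  decide (r < D.nroots) && decide (239 ≠ r) && decide (239 ≠ D.neg r) && (comm1 D r 239).isEmpty

/-- Check: two roots sum to the highest one and commute with it. -/
def chkPartner (D : ChevalleyDatum) (r y : ℕ) : Bool :=
  chkCent D r && chkCent D y && decide (y ≠ r) && decide (y ≠ D.neg r) &&
    match comm1 D r y with
    | [(x, C, 1, 1)] => decide (x = 239) && decide (C = 1 ∨ C = -1)
    | _ => false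

/-- Check: two roots commute. -/
def chkSwap (D : ChevalleyDatum) (r b : ℕ) : Bool :=
  decide (r < D.nroots) && decide (b < D.nroots) && decide (b ≠ r) && decide (b ≠ D.neg r) &&
    (comm1 D r b).isEmpty

theorem swap_of_chk {r b : ℕ} (h : chkSwap chevE8 r b = true) (t u : F) :
    gx sysE8 b u * gx sysE8 r t = gx sysE8 r t * gx sysE8 b u := by
  simp only [chkSwap, Bool.and_eq_true, decide_eq_true_eq, List.isEmpty_iff,
    ← commTerms_eq chevE8 simpleE8] at h
  exact gx_swap_of_nil sysE8 h.1.1.1.1 h.1.1.1.2 h.1.1.2 h.1.2 h.2 t u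

theorem cent_gx {r : ℕ} (h : chkCent chevE8 r = true) (t u : F) :
    gx sysE8 239 u * gx sysE8 r t = gx sysE8 r t * gx sysE8 239 u := by
  simp only [chkCent, Bool.and_eq_true, decide_eq_true_eq, List.isEmpty_iff,
    ← commTerms_eq chevE8 simpleE8] at h
  exact gx_swap_of_nil sysE8 h.1.1.1 (show 239 < 240 by norm_num) h.1.1.2 h.1.2 h.2 t u

theorem partner_gx {r y : ℕ} (h : chkPartner chevE8 r y = true) :
    ∃ C : F, C ≠ 0 ∧ ∀ t u : F, gx sysE8 y u * gx sysE8 r t =
      gx sysE8 r t * gx sysE8 239 (C * t * u) * gx sysE8 y u := by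
  simp only [chkPartner, Bool.and_eq_true, decide_eq_true_eq] at h
  obtain ⟨⟨⟨⟨hr, hy⟩, d1⟩, d2⟩, h5⟩ := h
  split at h5
  · next x C hC =>
    simp only [Bool.and_eq_true, decide_eq_true_eq] at h5
    obtain ⟨rfl, hC'⟩ := h5
    refine ⟨-(C : F), by rcases hC' with rfl | rfl <;> simp, fun t u => ?_⟩
    have hr0 := hr
    have hy0 := hy
    simp only [chkCent, Bool.and_eq_true, decide_eq_true_eq] at hr0 hy0
    rw [← commTerms_eq chevE8 simpleE8] at hC
    rw [gx_swap_of_single sysE8 hr0.1.1.1 hy0.1.1.1 d1 d2 hC, mul_assoc, mul_assoc, ← cent_gx hy]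
    group
  · exact absurd h5 Bool.false_ne_true

theorem R_gx_mul_Pc (t : F) (φ : stepZ.Co → F) :
    R (gx sysE8 239 t) * Pc R ψ φ = ψ (t * φ topZ) • Pc R ψ φ := by
  have e := R_u_mul_proj (U := UZ R) (ψ := ψ) (P := 1) (Pi.single topZ t) φ
  rw [single_dotProduct] at e
  unfold UZ at e
  rwa [uM_single, ext, mul_one, sub_self, add_zero] at e

theorem comm_Pc {g : ↥(chevE8.group F)}
    (hg : ∀ t : F, g * gx sysE8 239 t = gx sysE8 239 t * g) (φ : stepZ.Co → F) :
    R g * Pc R ψ φ = Pc R ψ φ * R g := by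
  have hm : Moves R (UZ R) 1 g id := by
    refine ⟨by rw [one_mul, mul_one], id, Function.bijective_id, fun _ _ => rfl, fun v => ?_⟩
    refine uM_ext sysE8 okZ.shape (gZ R) g (AddMonoidHom.id _) (fun r t => ?_) v
    rw [uM_single, AddMonoidHom.id_apply, uM_single]
    refine conj_ext (by rw [one_mul, mul_one]) ?_
    rw [show stepZ.root r = 239 by
      have : r = topZ := Subsingleton.elim (α := Fin 1) r topZ
      rw [this]; rfl]
    exact hg t
  exact hm.R_mul_proj φ

theorem comm_Pc_gx {r : ℕ} (h : chkCent chevE8 r = true) (t : F) (φ : stepZ.Co → F) :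
    R (gx sysE8 r t) * Pc R ψ φ = Pc R ψ φ * R (gx sysE8 r t) :=
  comm_Pc R (fun u => (cent_gx h t u).symm) φ

/-- A matrix moved by a shift of the centre has trace zero on a nontrivial weight space. -/
theorem trace_zero_of_shift {φ : stepZ.Co → F} {g : ↥(chevE8.group F)}
    (hg : R g * Pc R ψ φ = Pc R ψ φ * R g) {M : Matrix (Fin k) (Fin k) ℂ} {δ : F}
    (hM : R g * M = M * R (gx sysE8 239 δ) * R g) (hδ : ψ (δ * φ topZ) ≠ 1) :
    (M * Pc R ψ φ).trace = 0 := by
  have hgg : R g⁻¹ * R g = 1 := by rw [← map_mul, inv_mul_cancel, map_one]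
  have hgg' : R g * R g⁻¹ = 1 := by rw [← map_mul, mul_inv_cancel, map_one]
  have e : R g * (M * Pc R ψ φ) * R g⁻¹ = ψ (δ * φ topZ) • (M * Pc R ψ φ) := by
    rw [← mul_assoc, hM, mul_assoc (M * R _), hg, ← mul_assoc, mul_assoc M, R_gx_mul_Pc,
      mul_assoc, hgg', mul_one, mul_smul_comm]
  have e2 := congrArg Matrix.trace e
  rw [Matrix.trace_mul_comm, ← mul_assoc, hgg, one_mul, Matrix.trace_smul, smul_eq_mul] at e2
  by_contra hne
  exact hδ (mul_eq_right₀ hne |>.1 e2.symm)

/-- The projection onto the fixed points of the centre. -/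
abbrev PZ (ψ : AddChar F ℂ) : Matrix (Fin k) (Fin k) ℂ := Pc R ψ 0

theorem trace_eq_PZ (hψ : ψ 1 ≠ 1) (M : Matrix (Fin k) (Fin k) ℂ)
    (h : ∀ φ : stepZ.Co → F, φ ≠ 0 → (M * Pc R ψ φ).trace = 0) :
    M.trace = (M * PZ R ψ).trace := by
  conv_lhs => rw [← mul_one M, ← sum_proj (hZ R hψ), Finset.mul_sum, Matrix.trace_sum]
  exact Finset.sum_eq_single (0 : stepZ.Co → F) (fun φ _ hφ => h φ hφ)
    (fun h0 => absurd (Finset.mem_univ _) h0)

theorem topZ_ne_zero {φ : stepZ.Co → F} (hφ : φ ≠ 0) : φ topZ ≠ 0 := by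
  obtain ⟨r, hr⟩ := Function.ne_iff.1 hφ
  rwa [show r = topZ from Subsingleton.elim (α := Fin 1) r topZ] at hr

/-- Noncentral root elements of the radical have their trace on the fixed points of the centre. -/
theorem trace_noncentral (hψ : ψ 1 ≠ 1) {r y : ℕ} (h : chkPartner chevE8 r y = true) {t : F}
    (ht : t ≠ 0) :
    (R (gx sysE8 r t)).trace = (R (gx sysE8 r t) * PZ R ψ).trace := by
  obtain ⟨C, hC, hs⟩ := partner_gx (F := F) h
  simp only [chkPartner, Bool.and_eq_true] at h
  refine trace_eq_PZ R hψ _ fun φ hφ => ?_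
  set u := (C * t * φ topZ)⁻¹ with hu
  refine trace_zero_of_shift R (comm_Pc_gx R h.1.1.1.2 u φ) (δ := C * t * u) ?_ ?_
  · rw [← map_mul, hs t u, map_mul, map_mul]
  · rw [hu, mul_right_comm, mul_inv_cancel₀ (mul_ne_zero (mul_ne_zero hC ht) (topZ_ne_zero hφ))]
    exact hψ

/-- The same for a product of two commuting ones. -/
theorem trace_noncentral_two (hψ : ψ 1 ≠ 1) {r y b : ℕ} (h : chkPartner chevE8 r y = true)
    (hby : chkSwap chevE8 b y = true) (hb : chkCent chevE8 b = true) {t : F} (ht : t ≠ 0) (v : F) :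
    (R (gx sysE8 r t) * R (gx sysE8 b v)).trace =
      (R (gx sysE8 r t) * R (gx sysE8 b v) * PZ R ψ).trace := by
  obtain ⟨C, hC, hs⟩ := partner_gx (F := F) h
  simp only [chkPartner, Bool.and_eq_true] at h
  refine trace_eq_PZ R hψ _ fun φ hφ => ?_
  set u := (C * t * φ topZ)⁻¹ with hu
  refine trace_zero_of_shift R (comm_Pc_gx R h.1.1.1.2 u φ) (δ := C * t * u) ?_ ?_
  · simp only [← map_mul]
    congr 1
    rw [← mul_assoc, hs t u, mul_assoc, swap_of_chk hby v u, ← mul_assoc,
      mul_assoc (gx sysE8 r t) (gx sysE8 239 _), cent_gx hb v, ← mul_assoc]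
  · rw [hu, mul_right_comm, mul_inv_cancel₀ (mul_ne_zero (mul_ne_zero hC ht) (topZ_ne_zero hφ))]
    exact hψ

/-! ### Divisibility -/

theorem partA_ok : ∀ i : stepA.Co, chkPartner chevE8 (stepA.root i) (partA.getD i.1 0) = true ∧
    ∀ j : stepA.Co, j ≠ i → chkSwap chevE8 (stepA.root j) (partA.getD i.1 0) = true := by
  decide +kernel

/-- The multiplicity of a nontrivial character of the centre is a multiple of `q ^ 28`. -/
theorem dvd_mult (hψ : ψ 1 ≠ 1) {φ : stepZ.Co → F} (hφ : φ ≠ 0) :
    Fintype.card F ^ 28 ∣ mult (hZ R hψ) φ := by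
  set U := uM sysE8 shapeA (gA R) with hU
  have hPc : Pc R ψ φ * Pc R ψ φ = Pc R ψ φ := proj_sq (hZ R hψ) φ
  have hs : ∀ (r : stepA.Co) (t : F), U (Multiplicative.ofAdd (Pi.single r t)) =
      R (gx sysE8 (stepA.root r) t) := fun r t => by
    rw [hU, uM_single, ext, mul_one, sub_self, add_zero]
  have hcent : ∀ r : stepA.Co, chkCent chevE8 (stepA.root r) = true := fun r => by
    have h := (partA_ok r).1
    simp only [chkPartner, Bool.and_eq_true] at h
    exact h.1.1.1.1
  have hcomm : ∀ v, U v * Pc R ψ φ = Pc R ψ φ * U v := fun v => by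
    obtain ⟨w, rfl⟩ := Multiplicative.ofAdd.surjective v
    rw [← Finset.univ_sum_single w]
    induction (Finset.univ : Finset stepA.Co) using Finset.induction_on with
    | empty => rw [Finset.sum_empty, ofAdd_zero, map_one, one_mul, mul_one]
    | insert a s ha ih =>
      rw [Finset.sum_insert ha, ofAdd_add, map_mul, mul_assoc, ih, ← mul_assoc, hs,
        comm_Pc_gx R (hcent a), mul_assoc]
  have hp : ProjHyp U ψ (Pc R ψ φ) := ⟨hψ, hPc, hcomm⟩
  have hzero : ∀ v : stepA.Co → F, v ≠ 0 →
      (U (Multiplicative.ofAdd v) * Pc R ψ φ).trace = 0 := by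
    intro v hv
    obtain ⟨i, hi⟩ := Function.ne_iff.1 hv
    obtain ⟨h1, h2⟩ := partA_ok i
    obtain ⟨C, hC, hsh⟩ := partner_gx (F := F) h1
    set y := partA.getD i.1 0
    simp only [chkPartner, Bool.and_eq_true] at h1
    set u := (C * v i * φ topZ)⁻¹ with hu
    refine trace_zero_of_shift R (comm_Pc_gx R h1.1.1.1.2 u φ) (δ := C * v i * u) ?_ ?_
    · have key : ∀ s : Finset stepA.Co, ∀ w : stepA.Co → F,
          R (gx sysE8 y u) * U (Multiplicative.ofAdd (∑ j ∈ s, Pi.single j (w j))) =
            U (Multiplicative.ofAdd (∑ j ∈ s, Pi.single j (w j))) *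
              R (gx sysE8 239 (if i ∈ s then C * w i * u else 0)) * R (gx sysE8 y u) := by
        intro s w
        induction s using Finset.induction_on with
        | empty =>
          simp [gx_zero]
        | insert a s ha ih =>
          rw [Finset.sum_insert ha, ofAdd_add, map_mul, ← mul_assoc, hs]
          by_cases hai : a = i
          · subst hai
            rw [if_neg ha, gx_zero, map_one, mul_one] at ih
            rw [if_pos (Finset.mem_insert_self _ _)]
            have hz : ∀ c : F, R (gx sysE8 239 c) *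
                U (Multiplicative.ofAdd (∑ j ∈ s, Pi.single j (w j))) =
                U (Multiplicative.ofAdd (∑ j ∈ s, Pi.single j (w j))) * R (gx sysE8 239 c) := by
              intro c
              refine uM_ext sysE8 shapeA (gA R) _ (AddMonoidHom.id _) (fun r t => ?_) _
              rw [AddMonoidHom.id_apply, ← hU, hs, ← map_mul, ← map_mul, cent_gx (hcent r)]
            rw [← map_mul, hsh, map_mul, map_mul, mul_assoc _ (R (gx sysE8 y u)), ih, ← mul_assoc,
              mul_assoc (R (gx sysE8 _ _)), hz, ← mul_assoc]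
          · rw [← map_mul, swap_of_chk (h2 a hai) _ _, map_mul, mul_assoc, ih, ← mul_assoc,
              ← mul_assoc]
            by_cases his : i ∈ s
            · rw [if_pos his, if_pos (Finset.mem_insert_of_mem his)]
            · rw [if_neg his, if_neg (by simp [his, Ne.symm hai])]
      have e := key Finset.univ v
      rwa [Finset.univ_sum_single, if_pos (Finset.mem_univ i)] at e
    · rw [hu, mul_right_comm, mul_inv_cancel₀ (mul_ne_zero (mul_ne_zero hC hi) (topZ_ne_zero hφ))]
      exact hψ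
  refine ⟨mult hp 0, ?_⟩
  have e := trace_proj hp (0 : stepA.Co → F)
  rw [proj, Matrix.trace_smul, Matrix.trace_sum, Finset.sum_eq_single (0 : stepA.Co → F)
    (fun v _ hv => by
      rw [Matrix.trace_smul, hzero v hv, smul_zero])
    (fun h0 => absurd (Finset.mem_univ _) h0), zero_dotProduct, neg_zero, AddChar.map_zero_eq_one,
    one_smul, ofAdd_zero, map_one, one_mul,
    show (Pc R ψ φ).trace = (mult (hZ R hψ) φ : ℂ) from trace_proj (hZ R hψ) φ, smul_eq_mul,
    inv_mul_eq_iff_eq_mul₀ card_ne_zero', Fintype.card_fun,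
    show Fintype.card stepA.Co = 28 from Fintype.card_fin _] at e
  exact_mod_cast e

end CfsgLib.E8Deg
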