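import Cfsg.Agent.E8Deg.Heis
import Cfsg.Agent.E8Deg.Arith
import Cfsg.Agent.E8Deg.Data.Step1
import Cfsg.Agent.E8Deg.Data.Step2
import Cfsg.Agent.E8Deg.Data.Step3
import Cfsg.Agent.E8Deg.Data.Step4
import Cfsg.Agent.E8Deg.Data.Step5
import Cfsg.Agent.E8Deg.Data.Step6
import Cfsg.Agent.E8Deg.Data.Step7

/-!
The chain of steps for type E8: the degree and the character value of a highest root element.
-/

set_option autoImplicit false
set_option linter.unusedSectionVars false

open scoped Classical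

noncomputable section

namespace CfsgLib.E8Deg

open Matrix Cfsg.Lie CfsgLib.Chevalley

variable {D : ChevalleyDatum} {S : Sys D} {F : Type*} [Field F] [Fintype F] {k : ℕ} {st : Step}
  {top : st.Co} {R : ↥(D.group F) →* Matrix (Fin k) (Fin k) ℂ} {P : Matrix (Fin k) (Fin k) ℂ}
  {ψ : AddChar F ℂ}

theorem geom_shift {q : ℕ} (hq : 1 ≤ q) (a : ℕ) :
    ∀ n, (q - 1) * ((List.range' a n).map fun e => q ^ e).sum + q ^ a = q ^ (a + n)
  | 0 => by simp
  | n + 1 => by
    obtain ⟨m, rfl⟩ := Nat.exists_eq_add_of_le hq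
    have h := geom_shift (q := 1 + m) (Nat.le_add_right 1 m) a n
    rw [List.range'_concat, List.map_append, List.sum_append, mul_add, List.map_singleton,
      List.sum_singleton, one_mul, add_right_comm, h, Nat.add_sub_cancel_left, ← add_assoc, pow_succ]
    ring

theorem next_eq {q a n n' : ℕ} {N x : ℂ} {L : List ℕ}
    (e : N - x + (((q - 1) * (L.map fun i => q ^ i).sum : ℕ) : ℂ) = (q : ℂ) ^ (n + 1))
    {len : ℕ} (hg : (q - 1) * ((List.range' a len).map fun i => q ^ i).sum + q ^ a = q ^ (a + len))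
    (ha : a = n' + 1) (hL : L = List.range' a len) (hn : n + 1 = a + len) :
    N - x = (q : ℂ) ^ (n' + 1) := by
  subst hL
  rw [hn] at e
  have hg' : (((q - 1) * ((List.range' a len).map fun i => q ^ i).sum : ℕ) : ℂ) + (q : ℂ) ^ a =
      (q : ℂ) ^ (a + len) := by
    rw [← Nat.cast_pow, ← Nat.cast_pow, ← Nat.cast_add, hg]
  rw [← ha]
  linear_combination e - hg'

theorem step_link (ok : Ok D st top) (hG : Good S R st P) (hp : ProjHyp (uM S ok.shape hG) ψ P)
    (h : Simple1 ok hG hp) {split : Bool} (hsq : split = true ∨ 3 ≤ Fintype.card F)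
    (hb : chkBeta D st = true) (hw : chkWit D st split = true) {st' : Step} {top' : st'.Co}
    (ok' : Ok D st' top') (hG' : Good S R st' (nextP D S R ok.shape ψ P hG))
    (hroot : st'.root top' = st.beta) (w : List ℕ)
    (hwn : ∀ i ∈ w, i < D.rank ∧ D.simple i ∈ st.prev ∧ D.neg (D.simple i) ∈ st.prev)
    (himg : wimg D w (st.root top) = st.beta) (len : ℕ)
    (hL : ((st.movedList D).map fun s => (st.low D s).length) =
      List.range' (st'.n1 D top' + 1) len)
    (hn : st.n1 D top + 1 = st'.n1 D top' + 1 + len) :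
    ∃ hp' : ProjHyp (uM S ok'.shape hG') ψ (nextP D S R ok.shape ψ P hG), Simple1 ok' hG' hp' := by
  refine ⟨good_projHyp hp.psi ok' hG', simple_of_deficiency ok' hG' _ fun t ht => ?_⟩
  obtain ⟨g, hgP, hg⟩ := exists_word S hG.root w hwn
  obtain ⟨c, hc⟩ := hg (st.root top) (root_lt ok.shape top)
  have hconj : (R (gx S st.beta t) * P).trace =
      (R (gx S (st.root top) (((c⁻¹ : Fˣ) : F) * t)) * P).trace := by
    have e := hc (((c⁻¹ : Fˣ) : F) * t)
    rw [himg, ← mul_assoc, ← Units.val_mul, mul_inv_cancel, Units.val_one, one_mul] at e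
    have hgg : R g⁻¹ * R g = 1 := by rw [← map_mul, inv_mul_cancel, map_one]
    have hgg' : R g * R g⁻¹ = 1 := by rw [← map_mul, mul_inv_cancel, map_one]
    have e2 : R (gx S st.beta t) * P =
        R g * (R (gx S (st.root top) (((c⁻¹ : Fˣ) : F) * t)) * P) * R g⁻¹ := by
      rw [← mul_assoc (R g), ← map_mul, e, map_mul, mul_assoc (R (gx S st.beta t)), hgP,
        mul_assoc (R (gx S st.beta t)), mul_assoc P, hgg', mul_one]
    rw [e2, Matrix.trace_mul_comm, ← mul_assoc, hgg, one_mul]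
  have hdef := deficiency_of_simple ok hG hp h (t := ((c⁻¹ : Fˣ) : F) * t)
    (mul_ne_zero (Units.ne_zero _) ht)
  rw [← hconj, deficiency_split ok hG hp h hsq hb hw ht] at hdef
  rw [hroot]
  exact next_eq hdef (geom_shift (q := Fintype.card F) Fintype.card_pos _ len) rfl hL hn

theorem trace_nextP (ok : Ok D st top) (hG : Good S R st P) (hp : ProjHyp (uM S ok.shape hG) ψ P) :
    (nextP D S R ok.shape ψ P hG).trace = (mult hp (0 : st.Co → F) : ℂ) :=
  trace_proj hp 0

/-! ### The chain of type E8 -/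

variable (R : ↥(chevE8.group F) →* Matrix (Fin k) (Fin k) ℂ)

theorem eq_one_of_top (h : ∀ t : F, R (gx sysE8 239 t) = 1) (g : ↥(chevE8.group F)) : R g = 1 := by
  have hroot : ∀ r < chevE8.nroots, ∀ t : F, R (gx sysE8 r t) = 1 := by
    refine sysE8.top_induction (fun r hr => ?_) fun i hi r hr ih t => ?_
    · replace hr : r ∈ tabE8.tops := hr
      have : r = 239 := by revert hr; revert r; decide +kernel
      subst this
      exact h
    · obtain ⟨x, hx⟩ := exists_conj sysE8 R [i] (fun j hj => by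
        rw [List.mem_singleton] at hj; subst hj; exact hi)
      obtain ⟨c, hc⟩ := hx r hr
      have e := congrArg R (hc t)
      rw [map_mul, map_mul, show wimg chevE8 [i] r = chevE8.reflectRoot i r from rfl, ih, one_mul] at e
      have hu : R x⁻¹ * R x = 1 := by rw [← map_mul, inv_mul_cancel, map_one]
      calc R (gx sysE8 r t) = R x⁻¹ * (R x * R (gx sysE8 r t)) := by rw [← mul_assoc, hu, one_mul]
        _ = 1 := by rw [e, hu]
  obtain ⟨g, hg⟩ := g
  have hle : Subgroup.closure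
      {g : GL chevE8.Idx F | ∃ r < chevE8.nroots, ∃ t : F, g = sysE8.xG F r t} ≤
      R.ker.map (chevE8.group F).subtype := by
    refine (Subgroup.closure_le _).mpr ?_
    rintro y ⟨r, hr, t, rfl⟩
    exact ⟨gx sysE8 r t, hroot r hr t, rfl⟩
  have hg' := hg
  rw [sysE8.group_eq F] at hg'
  obtain ⟨y, hy, hyg⟩ := hle hg'
  have e : y = ⟨g, hg⟩ := Subtype.ext hyg
  rw [← e]
  exact hy

theorem multZ_eq_one (hψ : ψ 1 ≠ 1) (hR : ∃ g, R g ≠ 1) (hk : k < degNum (Fintype.card F)) :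
    multZ R hψ = 1 := by
  set q := Fintype.card F with hq
  have hq2 : 2 ≤ q := Fintype.one_lt_card
  have hm0 : multZ R hψ ≠ 0 := by
    intro h0
    obtain ⟨g, hg⟩ := hR
    refine hg (eq_one_of_top R (fun t => ?_) g)
    have e : PZ R ψ = 1 := by
      refine Eq.trans ?_ (sum_proj (hZ R hψ))
      rw [Finset.sum_eq_single (0 : stepZ.Co → F)
        (fun φ _ hφ => proj_eq_zero (hZ R hψ) (by rw [mult_centre R hψ hφ, h0, zero_mul]))
        (fun h' => absurd (Finset.mem_univ _) h')]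
      rfl
    have e2 := R_gx_mul_Pc R (ψ := ψ) t 0
    rw [show Pc R ψ 0 = 1 from e, mul_one] at e2
    rw [e2, show (0 : stepZ.Co → F) topZ = 0 from rfl, mul_zero, AddChar.map_zero_eq_one, one_smul]
  by_contra hne
  have hT := sum_top_of_deficiency ok0 (g0 R hψ) (p0 R hψ) (n := 27) (m := multZ R hψ)
    (fun t ht => deficiency_top0 R hψ ht)
  rw [← hq] at hT
  have hle : ∑ χ ∈ Finset.univ.filter (fun χ : step0.Co → F => χ top0 ≠ 0), mult (p0 R hψ) χ ≤
      mult (hZ R hψ) (0 : stepZ.Co → F) :=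
    (Finset.sum_le_univ_sum_of_nonneg fun _ => Nat.zero_le _).trans_eq
      (sum_mult_nat ok0 (g0 R hψ) (p0 R hψ) (trace_PZ R hψ))
  rw [hT] at hle
  have hdeg := degree_centre R hψ
  rw [← hq] at hdeg
  have h2 : (q - 1) * (2 * q ^ 27) + (q - 1) * (2 * q ^ 28) ≤ k := by
    have hm2 : 2 ≤ multZ R hψ := by omega
    have a1 : (q - 1) * (2 * q ^ 27) ≤ (q - 1) * (multZ R hψ * q ^ 27) :=
      Nat.mul_le_mul_left _ (Nat.mul_le_mul_right _ hm2)
    have a2 : (q - 1) * (2 * q ^ 28) ≤ (q - 1) * (multZ R hψ * q ^ 28) :=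
      Nat.mul_le_mul_left _ (Nat.mul_le_mul_right _ hm2)
    omega
  obtain ⟨d, hd⟩ := Nat.exists_eq_add_of_le hq2
  have hge : degNum q ≤ (q - 1) * (2 * q ^ 27) + (q - 1) * (2 * q ^ 28) := by
    have e : (q - 1) * (2 * q ^ 27) + (q - 1) * (2 * q ^ 28) + 2 * q ^ 27 = 2 * q ^ 29 := by
      rw [show q - 1 = d + 1 by omega, hd]; ring
    have h29 : 4 * q ^ 27 ≤ q ^ 29 := by
      calc 4 * q ^ 27 = 2 ^ 2 * q ^ 27 := by norm_num
        _ ≤ q ^ 2 * q ^ 27 := Nat.mul_le_mul_right _ (Nat.pow_le_pow_left hq2 2)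
        _ = q ^ 29 := by ring
    have h27 : 16 * q ^ 23 ≤ q ^ 27 := by
      calc 16 * q ^ 23 = 2 ^ 4 * q ^ 23 := by norm_num
        _ ≤ q ^ 4 * q ^ 23 := Nat.mul_le_mul_right _ (Nat.pow_le_pow_left hq2 4)
        _ = q ^ 27 := by ring
    have m : ∀ i, i ≤ 23 → q ^ i ≤ q ^ 23 := fun i hi => Nat.pow_le_pow_right (by omega) hi
    have := m 19 (by norm_num); have := m 17 (by norm_num); have := m 13 (by norm_num)
    have := m 11 (by norm_num); have := m 7 (by norm_num); have := m 1 (by norm_num)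
    have := degNum_eq q
    rw [pow_one] at *
    omega
  omega

theorem sub0 : ∀ r ∈ step1.prev, r ∈ step0.lev := by decide +kernel
theorem sub1 : ∀ r ∈ step2.prev, r ∈ step1.lev := by decide +kernel
theorem sub2 : ∀ r ∈ step3.prev, r ∈ step2.lev := by decide +kernel
theorem sub3 : ∀ r ∈ step4.prev, r ∈ step3.lev := by decide +kernel
theorem sub4 : ∀ r ∈ step5.prev, r ∈ step4.lev := by decide +kernel
theorem sub5 : ∀ r ∈ step6.prev, r ∈ step5.lev := by decide +kernel
theorem sub6 : ∀ r ∈ step7.prev, r ∈ step6.lev := by decide +kernel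

/-- The degree is at least the total of the cells, and the value at a highest root element. -/
theorem chain (hR : ∃ g, R g ≠ 1) (hk : k < degNum (Fintype.card F)) :
    (R (gx sysE8 239 1)).trace = (k : ℂ) - (Fintype.card F : ℂ) ^ 29 ∧
      (Fintype.card F = 2 → 545925216 ≤ k) ∧
      (3 ≤ Fintype.card F → degNum (Fintype.card F) ≤ k + 8) := by
  obtain ⟨ψ, hψ⟩ : ∃ ψ : AddChar F ℂ, ψ 1 ≠ 1 :=
    AddChar.exists_apply_ne_zero.2 (one_ne_zero : (1 : F) ≠ 0)
  set q := Fintype.card F with hq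
  have hm := multZ_eq_one R hψ hR hk
  have hT := trace_top R hψ (one_ne_zero (α := F))
  rw [hm, Nat.cast_one, one_mul] at hT
  have hdeg := degree_centre R hψ
  rw [hm, one_mul, ← hq] at hdeg
  -- the radical
  have s0 : Simple1 ok0 (g0 R hψ) (p0 R hψ) :=
    simple_of_deficiency ok0 (g0 R hψ) (p0 R hψ) fun t ht => by
      rw [deficiency_top0 R hψ ht, hm, Nat.cast_one, one_mul, n1_0]
  have G1 := good_next ok0 (g0 R hψ) (p0 R hψ) sub0 rfl
  have p1 := good_projHyp hψ ok1 G1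
  have s1 : Simple1 ok1 G1 p1 :=
    simple_of_deficiency ok1 G1 p1 fun t ht => by
      rw [show step1.root top1 = 226 from rfl, n1_1]
      exact deficiency1 R hψ s0 ht
  have G2 := good_next ok1 G1 p1 sub1 rfl
  obtain ⟨p2, s2⟩ := step_link ok1 G1 p1 s1 (split := true) (Or.inl rfl) beta1 wit1 ok2 G2 rfl
    [6, 5, 4, 3, 2, 0] (by decide +kernel) (by decide +kernel) 6 (by rw [moved1, n1_2]; rfl)
    (by rw [n1_1, n1_2])
  have G3 := good_next ok2 G2 p2 sub2 rfl
  obtain ⟨p3, s3⟩ := step_link ok2 G2 p2 s2 (split := true) (Or.inl rfl) beta2 wit2 ok3 G3 rfl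
    [0, 2, 3, 1] (by decide +kernel) (by decide +kernel) 4 (by rw [moved2, n1_3]; rfl)
    (by rw [n1_2, n1_3])
  have f0 := trace_eq_next ok0 (g0 R hψ) (p0 R hψ) s0
  have f1 := trace_eq_next ok1 G1 p1 s1
  have f2 := trace_eq_next ok2 G2 p2 s2
  have f3 := trace_eq_next ok3 G3 p3 s3
  rw [card_cells, lows0, trace_PZ R hψ] at f0
  rw [card_cells, lows1] at f1
  rw [card_cells, lows2] at f2
  rw [card_cells, lows3, trace_nextP ok3 G3 p3] at f3
  refine ⟨hT, fun h2 => ?_, fun h3 => ?_⟩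
  · rw [f1, f2, f3] at f0
    simp only [← Nat.cast_add, Nat.cast_inj, ← hq, h2, List.map_cons, List.map_nil, List.sum_cons,
      List.sum_nil] at f0
    rw [h2] at hdeg
    norm_num at f0 hdeg
    omega
  have G4 := good_next ok3 G3 p3 sub3 rfl
  obtain ⟨p4, s4⟩ := step_link ok3 G3 p3 s3 (split := false) (Or.inr h3) beta3 wit3 ok4 G4 rfl
    [1, 3, 4] (by decide +kernel) (by decide +kernel) 3 (by rw [moved3, n1_4]; rfl)
    (by rw [n1_3, n1_4])
  have G5 := good_next ok4 G4 p4 sub4 rfl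
  obtain ⟨p5, s5⟩ := step_link ok4 G4 p4 s4 (split := true) (Or.inl rfl) beta4 wit4 ok5 G5 rfl
    [2] (by decide +kernel) (by decide +kernel) 1 (by rw [moved4, n1_5]; rfl)
    (by rw [n1_4, n1_5])
  have G6 := good_next ok5 G5 p5 sub5 rfl
  obtain ⟨p6, s6⟩ := step_link ok5 G5 p5 s5 (split := false) (Or.inr h3) beta5 wit5 ok6 G6 rfl
    [3] (by decide +kernel) (by decide +kernel) 1 (by rw [moved5, n1_6]; rfl)
    (by rw [n1_5, n1_6])
  have G7 := good_next ok6 G6 p6 sub6 rfl
  obtain ⟨p7, s7⟩ := step_link ok6 G6 p6 s6 (split := false) (Or.inr h3) beta6 wit6 ok7 G7 rfl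
    [4] (by decide +kernel) (by decide +kernel) 1 (by rw [moved6, n1_7]; rfl)
    (by rw [n1_6, n1_7])
  rw [← trace_nextP ok3 G3 p3] at f3
  have f4 := trace_eq_next ok4 G4 p4 s4
  have f5 := trace_eq_next ok5 G5 p5 s5
  have f6 := trace_eq_next ok6 G6 p6 s6
  have f7 := trace_eq_next ok7 G7 p7 s7
  rw [card_cells, lows4] at f4
  rw [card_cells, lows5] at f5
  rw [card_cells, lows6] at f6
  rw [card_cells, lows7, trace_nextP ok7 G7 p7] at f7
  rw [f1, f2, f3, f4, f5, f6, f7] at f0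
  simp only [← Nat.cast_add, Nat.cast_inj, ← hq, List.map_cons, List.map_nil, List.sum_cons,
    List.sum_nil] at f0
  rw [f0] at hdeg
  rw [degNum_eq]
  have hz : ((q ^ 29 + q ^ 23 + q ^ 19 + q ^ 17 + q ^ 13 + q ^ 11 + q ^ 7 + q : ℕ) : ℤ) +
      (mult p7 0 : ℕ) = ((k + 8 : ℕ) : ℤ) := by
    have hd' := congrArg (fun n : ℕ => (n : ℤ)) hdeg
    push_cast [Nat.cast_sub (show 1 ≤ q from Fintype.card_pos)] at hd' ⊢
    linear_combination -hd'
  omega

end CfsgLib.E8Deg
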