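import Cfsg.Agent.E8Deg.Act

/-!
Composite root moves on the weights of one step: clearing the neighbours of the highest coordinate,
pure weights, and the counting of impure ones.
-/

set_option autoImplicit false
set_option linter.unusedSectionVars false

open scoped Classical

noncomputable section

namespace CfsgLib.E8Deg

open Matrix Cfsg.Lie CfsgLib.Chevalley

variable {D : ChevalleyDatum} {S : Sys D} {F : Type*} [Field F] {k : ℕ} {st : Step} {top : st.Co}

/-- The root of a move from `s` to `r`. -/
def betF (D : ChevalleyDatum) (st : Step) (s r : st.Co) : ℕ := (st.bet D s r).getD 0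

/-- Its coefficient. -/
def coefF (D : ChevalleyDatum) (F : Type*) [Field F] (st : Step) (s r : st.Co) : F :=
  (st.nCoef D (betF D st s r) s r : F)

theorem bet_spec (ok : Ok D st top) {s r : st.Co} (h : st.nbr D s r = true) :
    st.bet D s r = some (betF D st s r) ∧ betF D st s r ∈ st.lev ∧
      st.nCoef D (betF D st s r) s r ≠ 0 := by
  obtain ⟨b, hb⟩ := Option.isSome_iff_exists.1 h
  have hc := ok.bet
  simp only [chkBet, List.all_eq_true] at hc
  have h1 := hc s (List.mem_finRange _) r (List.mem_finRange _)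
  rw [hb] at h1
  simp only [Bool.and_eq_true, decide_eq_true_eq, List.contains_iff_mem] at h1
  simp only [betF, hb, Option.getD_some, true_and]
  exact h1

theorem nCoef_sign (ok : Ok D st top) {β : ℕ} (hβ : β ∈ st.lev) {j r : st.Co}
    (h : st.nCoef D β j r ≠ 0) : st.nCoef D β j r = 1 ∨ st.nCoef D β j r = -1 := by
  obtain ⟨-, -, ⟨-, h0⟩ | ⟨x, C, -, hC, -, hk⟩⟩ := normal_cases ok.normal ok.shape hβ r
  · exact absurd (h0 j) h
  · rw [hk] at h ⊢
    split_ifs at h ⊢
    · rcases hC with rfl | rfl <;> simp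
    · exact absurd rfl h

theorem coefF_ne_zero (ok : Ok D st top) {s r : st.Co} (h : st.nbr D s r = true) :
    coefF D F st s r ≠ 0 := by
  obtain ⟨-, h1, h2⟩ := bet_spec ok h
  rcases nCoef_sign ok h1 h2 with e | e <;> simp [coefF, e]

/-- Composite moves away from `s`. -/
def lmove (D : ChevalleyDatum) (st : Step) (s : st.Co) (l : List (st.Co × F)) (φ : st.Co → F) :
    st.Co → F :=
  l.foldr (fun e x => bx D st (betF D st s e.1) e.2 x) φ

theorem lmove_cons (s : st.Co) (e : st.Co × F) (l : List (st.Co × F)) (φ : st.Co → F) :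
    lmove D st s (e :: l) φ = bx D st (betF D st s e.1) e.2 (lmove D st s l φ) := rfl

theorem lmove_append (s : st.Co) (l m : List (st.Co × F)) (φ : st.Co → F) :
    lmove D st s (l ++ m) φ = lmove D st s l (lmove D st s m φ) := List.foldr_append

variable (D) in
/-- Inverse list. -/
def negList (l : List (st.Co × F)) : List (st.Co × F) := (l.map fun e => (e.1, -e.2)).reverse

theorem lmove_neg (ok : Ok D st top) {s : st.Co} : ∀ (l : List (st.Co × F)),
    (∀ e ∈ l, st.nbr D s e.1 = true) → ∀ φ : st.Co → F,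
      lmove D st s l (lmove D st s (negList l) φ) = φ
  | [], _, φ => rfl
  | e :: l, h, φ => by
    rw [List.forall_mem_cons] at h
    rw [negList, List.map_cons, List.reverse_cons, lmove_append, lmove_cons,
      show (l.map fun e => (e.1, -e.2)).reverse = negList l from rfl, lmove_neg ok l h.2,
      lmove_cons]
    have := bx_bx (F := F) ok.normal ok.shape (bet_spec ok h.1).2.1 (-e.2) φ
    rwa [neg_neg] at this

theorem lmove_injective (ok : Ok D st top) {s : st.Co} : ∀ (l : List (st.Co × F)),
    (∀ e ∈ l, st.nbr D s e.1 = true) → Function.Injective (lmove (F := F) D st s l)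
  | [], _ => fun _ _ h => h
  | e :: l, h => by
    rw [List.forall_mem_cons] at h
    refine fun a b hab => lmove_injective ok l h.2 ?_
    have := congrArg (bx D st (betF D st s e.1) (-e.2)) hab
    rwa [lmove_cons, lmove_cons, bx_bx ok.normal ok.shape (bet_spec ok h.1).2.1,
      bx_bx ok.normal ok.shape (bet_spec ok h.1).2.1] at this

theorem moves_lmove [Fintype F] {R : ↥(D.group F) →* Matrix (Fin k) (Fin k) ℂ} {P : Matrix (Fin k) (Fin k) ℂ}
    (ok : Ok D st top) (hG : Good S R st P) {s : st.Co} : ∀ (l : List (st.Co × F)),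
    (∀ e ∈ l, st.nbr D s e.1 = true) →
      Moves R (uM S ok.shape hG) P ((l.map fun e => gx S (betF D st s e.1) e.2).prod)
        (lmove D st s l)
  | [], _ => Moves.one
  | e :: l, h => by
    rw [List.forall_mem_cons] at h
    rw [List.map_cons, List.prod_cons]
    exact (moves_gx S hG ok.normal ok.shape (bet_spec ok h.1).2.1 e.2).mul (moves_lmove ok hG l h.2)

theorem clear_cases (ok : Ok D st top) {r : st.Co} (hr : st.nbr D top r = true) {j r' : st.Co}
    (h : st.nCoef D (betF D st top r) j r' ≠ 0) :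
    r' ≠ top ∧ (st.nbr D top r' = true → j = top ∧ r' = r) := by
  have hc := ok.clr
  simp only [chkClear, Bool.and_eq_true, List.all_eq_true] at hc
  have h1 := hc.2 r (List.mem_finRange _)
  rw [(bet_spec ok hr).1] at h1
  simp only [List.all_eq_true] at h1
  have h2 := Step.onTarget_spec D st (h1 r' (List.mem_finRange _)) h
  simp only [Bool.or_eq_true, decide_eq_true_eq, Bool.and_eq_true, Bool.not_eq_true'] at h2
  exact ⟨h2.1, fun hn => h2.2.resolve_left (by rw [hn]; simp)⟩

theorem nbr_top_self (ok : Ok D st top) : st.nbr D top top = false := by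
  have hc := ok.clr
  simp only [chkClear, Bool.and_eq_true, Bool.not_eq_true'] at hc
  exact hc.1

theorem lmove_top (ok : Ok D st top) (φ : st.Co → F) : ∀ (l : List (st.Co × F)),
    (∀ e ∈ l, st.nbr D top e.1 = true) →
      lmove D st top l φ top = φ top ∧ ∀ r, st.nbr D top r = true → lmove D st top l φ r =
        φ r - (l.map fun e => if e.1 = r then e.2 * coefF D F st top e.1 else 0).sum * φ top
  | [], _ => ⟨rfl, fun r _ => by simp [lmove]⟩
  | e :: l, h => by
    rw [List.forall_mem_cons] at h
    obtain ⟨ih1, ih2⟩ := lmove_top ok φ l h.2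
    refine ⟨?_, fun r hr => ?_⟩
    · rw [lmove_cons, bx, Finset.sum_eq_zero, mul_zero, sub_zero, ih1]
      intro j _
      by_cases hz : st.nCoef D (betF D st top e.1) j top = 0
      · simp [hz]
      · exact absurd rfl (clear_cases ok h.1 hz).1
    · rw [lmove_cons, bx, ih2 r hr, List.map_cons, List.sum_cons, Finset.sum_eq_single top]
      · rw [ih1]
        split_ifs with he
        · subst he; rw [coefF]; ring
        · have hz : st.nCoef D (betF D st top e.1) top r = 0 := by
            by_contra hne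
            exact he ((clear_cases ok h.1 hne).2 hr).2.symm
          rw [hz]; push_cast; ring
      · intro j _ hj
        by_cases hz : st.nCoef D (betF D st top e.1) j r = 0
        · simp [hz]
        · exact absurd ((clear_cases ok h.1 hz).2 hr).1 hj
      · intro h'; exact absurd (Finset.mem_univ _) h'

variable (D) in
/-- The neighbours of the highest coordinate. -/
def n1List (top : st.Co) : List st.Co := (List.finRange _).filter fun r => st.nbr D top r

variable (D) in
/-- The clearing list with given values. -/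
def clList (top : st.Co) (ν : st.Co → F) : List (st.Co × F) :=
  (n1List D top).map fun r => (r, ν r / coefF D F st top r)

theorem clList_nbr (ν : st.Co → F) : ∀ e ∈ clList D top ν, st.nbr D top e.1 = true := by
  intro e he
  simp only [clList, n1List, List.mem_map, List.mem_filter] at he
  obtain ⟨r, ⟨-, hr⟩, rfl⟩ := he
  exact hr

theorem negList_nbr {s : st.Co} {l : List (st.Co × F)} (h : ∀ e ∈ l, st.nbr D s e.1 = true) :
    ∀ e ∈ negList l, st.nbr D s e.1 = true := by
  intro e he
  simp only [negList, List.mem_reverse, List.mem_map] at he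
  obtain ⟨a, ha, rfl⟩ := he
  exact h a ha

theorem clList_sum (ok : Ok D st top) (ν : st.Co → F) {r : st.Co} (hr : st.nbr D top r = true) :
    ((clList D top ν).map fun e => if e.1 = r then e.2 * coefF D F st top e.1 else 0).sum = ν r := by
  rw [clList, List.map_map, n1List, ← List.sum_toFinset _ ((List.nodup_finRange _).filter _)]
  simp only [Function.comp_apply]
  rw [Finset.sum_ite_eq' _ r, if_pos (by simp [n1List, hr]), div_mul_cancel₀ _ (coefF_ne_zero ok hr)]

variable (D) in
/-- Subtract multiples of the highest coordinate from the neighbours. -/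
def lclear (top : st.Co) (ν : st.Co → F) : (st.Co → F) → (st.Co → F) :=
  lmove D st top (clList D top ν)

variable (D) in
/-- Its inverse. -/
def lfill (top : st.Co) (ν : st.Co → F) : (st.Co → F) → (st.Co → F) :=
  lmove D st top (negList (clList D top ν))

theorem lclear_apply (ok : Ok D st top) (ν φ : st.Co → F) :
    lclear D top ν φ top = φ top ∧
      ∀ r, st.nbr D top r = true → lclear D top ν φ r = φ r - ν r * φ top := by
  obtain ⟨h1, h2⟩ := lmove_top ok φ _ (clList_nbr (D := D) (top := top) ν)
  exact ⟨h1, fun r hr => by rw [lclear, h2 r hr, clList_sum ok ν hr]⟩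

theorem lclear_lfill (ok : Ok D st top) (ν φ : st.Co → F) :
    lclear D top ν (lfill D top ν φ) = φ :=
  lmove_neg ok _ (clList_nbr ν) φ

theorem lfill_lclear (ok : Ok D st top) (ν φ : st.Co → F) :
    lfill D top ν (lclear D top ν φ) = φ :=
  lmove_injective ok _ (clList_nbr ν) (lclear_lfill ok ν _)

theorem lfill_apply (ok : Ok D st top) (ν φ : st.Co → F) :
    lfill D top ν φ top = φ top ∧
      ∀ r, st.nbr D top r = true → lfill D top ν φ r = φ r + ν r * φ top := by
  obtain ⟨h1, h2⟩ := lclear_apply ok ν (lfill D top ν φ)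
  rw [lclear_lfill ok] at h1 h2
  exact ⟨h1.symm, fun r hr => by rw [h2 r hr, ← h1]; ring⟩

theorem lclear_congr {ν ν' : st.Co → F} (h : ∀ r, st.nbr D top r = true → ν r = ν' r) :
    lclear D top ν = lclear D top ν' := by
  rw [lclear, lclear, clList, clList, List.map_congr_left fun r hr => ?_]
  simp only [n1List, List.mem_filter] at hr
  rw [h r hr.2]

variable (D) in
/-- The values clearing a weight. -/
def nuOf (top : st.Co) (φ : st.Co → F) : st.Co → F := fun r => φ r / φ top

variable (D) in
/-- A weight in the orbit of the highest coordinate vector. -/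
def Pure (top : st.Co) (φ : st.Co → F) : Prop :=
  φ top ≠ 0 ∧ lclear D top (nuOf top φ) φ = Pi.single top (φ top)

theorem clear_zero (ok : Ok D st top) {φ : st.Co → F} (h : φ top ≠ 0) {r : st.Co}
    (hr : st.nbr D top r = true) : lclear D top (nuOf top φ) φ r = 0 := by
  rw [(lclear_apply ok _ φ).2 r hr, nuOf, div_mul_cancel₀ _ h, sub_self]

theorem pure_ext (ok : Ok D st top) {φ φ' : st.Co → F} (h : Pure D top φ) (h' : Pure D top φ')
    (ht : φ top = φ' top) (hn : ∀ r, st.nbr D top r = true → φ r = φ' r) : φ = φ' := by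
  refine lmove_injective ok _ (clList_nbr (D := D) (top := top) (nuOf top φ)) ?_
  show lclear D top _ φ = lclear D top _ φ'
  rw [h.2, lclear_congr (ν := nuOf top φ) (ν' := nuOf top φ')
    (fun r hr => by simp [nuOf, ht, hn r hr]), h'.2, ht]

theorem ne_top_of_nbr (ok : Ok D st top) {r : st.Co} (hr : st.nbr D top r = true) : r ≠ top :=
  fun e => by rw [e, nbr_top_self ok] at hr; exact absurd hr Bool.false_ne_true

theorem pure_lfill (ok : Ok D st top) (ν : st.Co → F) {c : F} (hc : c ≠ 0) :
    Pure D top (lfill D top ν (Pi.single top c)) := by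
  obtain ⟨h1, h2⟩ := lfill_apply ok ν (Pi.single top c : st.Co → F)
  rw [Pi.single_eq_same] at h1
  refine ⟨by rw [h1]; exact hc, ?_⟩
  rw [h1, lclear_congr (ν' := ν) (fun r hr => ?_), lclear_lfill ok]
  rw [nuOf, h2 r hr, h1, Pi.single_eq_of_ne (ne_top_of_nbr ok hr), Pi.single_eq_same, zero_add,
    mul_div_cancel_right₀ _ hc]

/-- Extension by zero from the neighbours of the highest coordinate. -/
def extN (ν : {r : st.Co // st.nbr D top r = true} → F) : st.Co → F :=
  fun r => if h : st.nbr D top r = true then ν ⟨r, h⟩ else 0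

theorem card_nbr : Fintype.card {r : st.Co // st.nbr D top r = true} = st.n1 D top := by
  rw [Fintype.card_subtype, Step.n1, ← List.toFinset_card_of_nodup ((List.nodup_finRange _).filter _)]
  congr 1
  ext r
  simp

variable [Fintype F]

variable (D) in
/-- The pure weights with given value at the highest coordinate. -/
def pureSet (top : st.Co) : Finset (st.Co → F) := Finset.univ.filter (Pure D top)

theorem sum_pureSet (ok : Ok D st top) {M : Type*} [AddCommMonoid M] (f : F → M) :
    ∑ φ ∈ pureSet (F := F) D top, f (φ top) =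
      (Fintype.card F ^ st.n1 D top) • ∑ c ∈ Finset.univ.erase (0 : F), f c := by
  rw [Finset.smul_sum]
  rw [← Finset.sum_fiberwise_of_maps_to (g := fun φ : st.Co → F => φ top)
    (t := Finset.univ.erase (0 : F)) (fun φ hφ => by
      simp only [pureSet, Finset.mem_filter, Finset.mem_univ, true_and] at hφ
      simp [hφ.1])]
  refine Finset.sum_congr rfl fun c hc => ?_
  rw [Finset.sum_congr rfl (g := fun _ => f c) (fun φ hφ => by rw [(Finset.mem_filter.1 hφ).2]),
    Finset.sum_const]
  congr 1
  rw [Finset.mem_erase] at hc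
  rw [← card_nbr (D := D), ← Fintype.card_fun, ← Finset.card_univ]
  symm
  refine Finset.card_bij (fun ν _ => lfill D top (extN ν) (Pi.single top c)) ?_ ?_ ?_
  · intro ν _
    refine Finset.mem_filter.2 ⟨Finset.mem_filter.2 ⟨Finset.mem_univ _, pure_lfill ok _ hc.1⟩, ?_⟩
    rw [(lfill_apply ok _ _).1, Pi.single_eq_same]
  · intro ν _ ν' _ h
    funext r
    have := congrFun h r.1
    rw [(lfill_apply ok _ _).2 _ r.2, (lfill_apply ok _ _).2 _ r.2, Pi.single_eq_same,
      add_right_inj] at this
    have h' := mul_right_cancel₀ hc.1 this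
    simpa [extN, r.2] using h'
  · intro φ hφ
    simp only [pureSet, Finset.mem_filter, Finset.mem_univ, true_and] at hφ
    refine ⟨fun r => φ r.1 / c, Finset.mem_univ _, ?_⟩
    refine pure_ext ok (pure_lfill ok _ hc.1) hφ.1 ?_ fun r hr => ?_
    · rw [(lfill_apply ok _ _).1, Pi.single_eq_same, hφ.2]
    · rw [(lfill_apply ok _ _).2 _ hr, Pi.single_eq_of_ne (ne_top_of_nbr ok hr), Pi.single_eq_same,
        extN, dif_pos hr, zero_add, div_mul_cancel₀ _ hc.1]

/-- The coordinates vanishing in a cleared weight whose largest other coordinate is `u`. -/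
def zSet (D : ChevalleyDatum) (st : Step) (top u j : st.Co) : Prop :=
  st.nbr D top j = true ∨ (u < j ∧ j ≠ top)

theorem psi_witness (ok : Ok D st top) {u : st.Co} (hu : u ≠ top)
    (hn : st.nbr D top u = false) :
    ∃ b1 ∈ st.lev, ∃ b2 ∈ st.lev, ∃ v w : st.Co, st.nCoef D b1 u v ≠ 0 ∧ st.nCoef D b2 u w ≠ 0 ∧
      v ≠ w ∧ v ≠ top ∧ w ≠ top ∧ ∀ j r' : st.Co,
        (st.nCoef D b1 j r' ≠ 0 → ((zSet D st top u r' ∧ r' ≠ v) ∨ st.nbr D top r' = true ∨ r' = top ∨
            r' = u → zSet D st top u j) ∧ (r' = v → j = u)) ∧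
        (st.nCoef D b2 j r' ≠ 0 → (st.nbr D top r' = true ∨ r' = top ∨ r' = v →
            zSet D st top u j ∧ j ≠ v) ∧ (r' = w → j = u)) := by
  have h := ok.psi
  simp only [chkPsi, List.all_eq_true] at h
  have h1 := h u (List.mem_finRange _)
  simp only [Bool.or_eq_true, decide_eq_true_eq, hu, hn, Bool.false_eq_true, false_or] at h1
  set e := st.psiW.getD u.1 (0, 0, 0, 0)
  split_ifs at h1 with hv hw
  simp only [Bool.and_eq_true, List.all_eq_true, Bool.not_eq_true', decide_eq_false_iff_not,
    decide_eq_true_eq, List.contains_iff_mem] at h1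
  obtain ⟨⟨⟨⟨⟨⟨⟨hb1, hb2⟩, e1⟩, e2⟩, e3⟩, e4⟩, e5⟩, e6⟩ := h1
  refine ⟨e.1, hb1, e.2.1, hb2, ⟨_, hv⟩, ⟨_, hw⟩, e1, e2, e3, e4, e5, fun j r' => ?_⟩
  obtain ⟨f1, f2⟩ := e6 r' (List.mem_finRange _)
  refine ⟨fun hne => ?_, fun hne => ?_⟩
  · have g := Step.onTarget_spec D st f1 hne
    simp only [Bool.and_eq_true, Bool.or_eq_true, decide_eq_true_eq, Bool.not_eq_true',
      decide_eq_false_iff_not, Bool.or_eq_false_iff, Bool.and_eq_false_iff] at g
    obtain ⟨g1, g4⟩ := g
    refine ⟨fun hh => ?_, fun hh => g4.resolve_left (fun g => g hh)⟩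
    rcases g1 with g1 | ⟨⟨⟨g0, g2⟩, g3⟩, g5⟩
    · exact g1
    · exfalso
      rcases hh with ⟨hz, hv'⟩ | hh | hh | hh
      · rcases g3 with ⟨z1, z2⟩ | g3
        · rcases hz with hz | hz
          · rw [z1] at hz; exact absurd hz Bool.false_ne_true
          · simp [hz.1, hz.2] at z2
        · exact hv' g3
      · rw [g5] at hh; exact absurd hh Bool.false_ne_true
      · exact g0 hh
      · exact g2 hh
  · have g := Step.onTarget_spec D st f2 hne
    simp only [Bool.and_eq_true, Bool.or_eq_true, decide_eq_true_eq, Bool.not_eq_true',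
      decide_eq_false_iff_not] at g
    obtain ⟨g1, g4⟩ := g
    refine ⟨fun hh => ?_, fun hh => g4.resolve_left (fun g => g hh)⟩
    rcases g1 with g1 | ⟨⟨g0, g2⟩, g5⟩
    · exact g1
    · exfalso
      rcases hh with hh | hh | hh
      · rw [g5] at hh; exact absurd hh Bool.false_ne_true
      · exact g0 hh
      · exact g2 hh

variable {R : ↥(D.group F) →* Matrix (Fin k) (Fin k) ℂ} {P : Matrix (Fin k) (Fin k) ℂ}
  {ψ : AddChar F ℂ}

theorem mult_lfill (ok : Ok D st top) (hG : Good S R st P)
    (hp : ProjHyp (uM S ok.shape hG) ψ P) (ν φ : st.Co → F) :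
    mult hp (lfill D top ν φ) = mult hp φ :=
  (moves_lmove ok hG _ (negList_nbr (clList_nbr ν))).mult_eq hp φ

theorem mult_lclear (ok : Ok D st top) (hG : Good S R st P)
    (hp : ProjHyp (uM S ok.shape hG) ψ P) (ν φ : st.Co → F) :
    mult hp (lclear D top ν φ) = mult hp φ :=
  (moves_lmove ok hG _ (clList_nbr ν)).mult_eq hp φ

/-- An impure weight has many conjugates with nonzero highest coordinate. -/
theorem impure_count (ok : Ok D st top) (hG : Good S R st P)
    (hp : ProjHyp (uM S ok.shape hG) ψ P) {φ : st.Co → F} (ht : φ top ≠ 0) (hm : mult hp φ ≠ 0)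
    (hnp : ¬ Pure D top φ) :
    Fintype.card F ^ (st.n1 D top + 2) ≤
      ∑ χ ∈ Finset.univ.filter (fun χ : st.Co → F => χ top ≠ 0), mult hp χ := by
  set χ := lclear D top (nuOf top φ) φ with hχ
  have hχt : χ top = φ top := (lclear_apply ok _ φ).1
  have hχn : ∀ r, st.nbr D top r = true → χ r = 0 := fun r hr => clear_zero ok ht hr
  have hne' : (Finset.univ.filter fun j => j ≠ top ∧ χ j ≠ 0).Nonempty := by
    obtain ⟨u, hu⟩ : ∃ u, χ u ≠ (Pi.single top (φ top) : st.Co → F) u :=
      Function.ne_iff.1 fun e => hnp ⟨ht, e⟩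
    have hut : u ≠ top := fun e => hu (by rw [e, hχt, Pi.single_eq_same])
    rw [Pi.single_eq_of_ne hut] at hu
    exact ⟨u, Finset.mem_filter.2 ⟨Finset.mem_univ _, hut, hu⟩⟩
  set u := (Finset.univ.filter fun j => j ≠ top ∧ χ j ≠ 0).max' hne' with hudef
  obtain ⟨-, hut, hu⟩ := Finset.mem_filter.1 (Finset.max'_mem _ hne')
  rw [← hudef] at hut hu
  have hz : ∀ j, zSet D st top u j → χ j = 0 := by
    rintro j (hj | ⟨hj, hjt⟩)
    · exact hχn j hj
    · by_contra h0
      exact absurd (Finset.le_max' _ j (Finset.mem_filter.2 ⟨Finset.mem_univ _, hjt, h0⟩))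
        (not_le.2 hj)
  have hun : st.nbr D top u = false := by
    rw [Bool.eq_false_iff]; exact fun h => hu (hχn u h)
  obtain ⟨b1, hb1, b2, hb2, v, w, c1, c2, hvw, -, -, hb⟩ := psi_witness ok hut hun
  have c1' : (st.nCoef D b1 u v : F) ≠ 0 := by
    rcases nCoef_sign ok hb1 c1 with e | e <;> simp [e]
  have c2' : (st.nCoef D b2 u w : F) ≠ 0 := by
    rcases nCoef_sign ok hb2 c2 with e | e <;> simp [e]
  set y := fun t : F × F => bx D st b2 t.2 (bx D st b1 t.1 χ) with hy
  have hsum : ∀ (b : ℕ) (x : st.Co → F) (r : st.Co),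
      (∀ j, st.nCoef D b j r ≠ 0 → x j = 0) → ∀ t, bx D st b t x r = x r := fun b x r h t => by
    rw [bx, Finset.sum_eq_zero, mul_zero, sub_zero]
    intro j _
    by_cases hz : st.nCoef D b j r = 0
    · simp [hz]
    · simp [h j hz]
  have hone : ∀ (b : ℕ) (x : st.Co → F) (r : st.Co),
      (∀ j, st.nCoef D b j r ≠ 0 → j = u) → ∀ t, bx D st b t x r = x r - t * ((st.nCoef D b u r : F) * x u) :=
    fun b x r h t => by
      rw [bx, Finset.sum_eq_single u]
      · intro j _ hj
        by_cases hz : st.nCoef D b j r = 0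
        · simp [hz]
        · exact absurd (h j hz) hj
      · intro h'; exact absurd (Finset.mem_univ _) h'
  have y1z : ∀ t r, zSet D st top u r → r ≠ v → bx D st b1 t χ r = 0 := fun t r hr hrv => by
    rw [hsum b1 χ r (fun j hj => hz j (((hb j r).1 hj).1 (Or.inl ⟨hr, hrv⟩))), hz r hr]
  have y1n : ∀ t r, st.nbr D top r = true → bx D st b1 t χ r = 0 := fun t r hr => by
    rw [hsum b1 χ r (fun j hj => hz j (((hb j r).1 hj).1 (Or.inr (Or.inl hr)))), hχn r hr]
  have y1u : ∀ t, bx D st b1 t χ u = χ u := fun t =>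
    hsum b1 χ u (fun j hj => hz j (((hb j u).1 hj).1 (Or.inr (Or.inr (Or.inr rfl))))) t
  have yn : ∀ t r, st.nbr D top r = true → y t r = 0 := fun t r hr => by
    rw [hy]; dsimp only
    rw [hsum b2 _ r (fun j hj => by
      obtain ⟨e, e'⟩ := ((hb j r).2 hj).1 (Or.inl hr)
      exact y1z _ j e e'), y1n _ r hr]
  have yt : ∀ t, y t top = φ top := fun t => by
    rw [hy]; dsimp only
    rw [hsum b2 _ top (fun j hj => by
        obtain ⟨e, e'⟩ := ((hb j top).2 hj).1 (Or.inr (Or.inl rfl))
        exact y1z _ j e e'),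
      hsum b1 _ top (fun j hj => hz j (((hb j top).1 hj).1 (Or.inr (Or.inr (Or.inl rfl))))), hχt]
  have yv : ∀ t, y t v = χ v - t.1 * ((st.nCoef D b1 u v : F) * χ u) := fun t => by
    rw [hy]; dsimp only
    rw [hsum b2 _ v (fun j hj => by
        obtain ⟨e, e'⟩ := ((hb j v).2 hj).1 (Or.inr (Or.inr rfl))
        exact y1z _ j e e'),
      hone b1 χ v (fun j hj => ((hb j v).1 hj).2 rfl)]
  have yw : ∀ t, y t w = bx D st b1 t.1 χ w - t.2 * ((st.nCoef D b2 u w : F) * χ u) := fun t => by
    rw [hy]; dsimp only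
    rw [hone b2 _ w (fun j hj => ((hb j w).2 hj).2 rfl), y1u]
  set f := fun p : ({r : st.Co // st.nbr D top r = true} → F) × (F × F) =>
    lfill D top (extN p.1) (y p.2) with hf
  have finj : Function.Injective f := by
    rintro ⟨ν, t⟩ ⟨ν', t'⟩ h
    have hν : ν = ν' := by
      funext r
      have := congrFun h r.1
      simp only [hf] at this
      rw [(lfill_apply ok _ _).2 _ r.2, (lfill_apply ok _ _).2 _ r.2, yn _ _ r.2, yn _ _ r.2, yt, yt,
        zero_add, zero_add] at this
      simpa [extN, r.2] using mul_right_cancel₀ ht this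
    subst hν
    have hyy : y t = y t' := lmove_injective ok _ (negList_nbr (clList_nbr _)) h
    have h1 := congrFun hyy v
    rw [yv, yv, sub_right_inj] at h1
    have e1 : t.1 = t'.1 := mul_right_cancel₀ (mul_ne_zero c1' hu) h1
    have h2 := congrFun hyy w
    rw [yw, yw, e1, sub_right_inj] at h2
    rw [show t = t' from Prod.ext e1 (mul_right_cancel₀ (mul_ne_zero c2' hu) h2)]
  have fm : ∀ p, mult hp (f p) = mult hp φ := fun p => by
    simp only [hf, hy]
    rw [mult_lfill ok hG hp, (moves_gx S hG ok.normal ok.shape hb2 _).mult_eq hp,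
      (moves_gx S hG ok.normal ok.shape hb1 _).mult_eq hp, hχ, mult_lclear ok hG hp]
  calc Fintype.card F ^ (st.n1 D top + 2)
      = ∑ χ' ∈ Finset.univ.image f, 1 := by
        rw [Finset.sum_const, smul_eq_mul, mul_one, Finset.card_image_of_injective _ finj,
          Finset.card_univ, Fintype.card_prod, Fintype.card_prod, Fintype.card_fun, card_nbr]
        ring
    _ ≤ ∑ χ' ∈ Finset.univ.image f, mult hp χ' := by
        refine Finset.sum_le_sum fun χ' hχ' => ?_
        obtain ⟨p, -, rfl⟩ := Finset.mem_image.1 hχ'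
        rw [fm]; omega
    _ ≤ _ := by
        refine Finset.sum_le_sum_of_subset fun χ' hχ' => ?_
        obtain ⟨p, -, rfl⟩ := Finset.mem_image.1 hχ'
        refine Finset.mem_filter.2 ⟨Finset.mem_univ _, ?_⟩
        rw [hf]; dsimp only
        rw [(lfill_apply ok _ _).1, yt]
        exact ht

end CfsgLib.E8Deg
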