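import Cfsg.Agent.E8Deg.Struct

/-!
The sum of a character of two coordinates over the weights of one step.
-/

set_option autoImplicit false
set_option linter.unusedSectionVars false

open scoped Classical

noncomputable section

namespace CfsgLib.E8Deg

open Matrix Cfsg.Lie CfsgLib.Chevalley

variable {D : ChevalleyDatum} {S : Sys D} {F : Type*} [Field F] [Fintype F] {k : ℕ} {st : Step}
  {top : st.Co} {R : ↥(D.group F) →* Matrix (Fin k) (Fin k) ℂ} {P : Matrix (Fin k) (Fin k) ℂ}
  {ψ : AddChar F ℂ}

/-- Check: the two coordinates are free, fixed or zero on every cell. -/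
def chkPair (D : ChevalleyDatum) (st : Step) (a b : st.Co) : Bool :=
  !decide (a = b) && (List.finRange _).all fun (s : st.Co) =>
    (decide (s < a) && decide (s < b)) || decide (s = a) || (decide (s = b) && decide (s < a)) ||
      (decide (b < s) && st.nbr D s b && (decide (s < a) || (decide (a < s) && st.nbr D s a)))

/-- The cells not vanishing at both coordinates. -/
def highList (st : Step) (a b : st.Co) : List st.Co :=
  (List.finRange _).filter fun s => !(decide (s < a) && decide (s < b))

theorem highList_filter (a b : st.Co) : (List.finRange st.S.length).filter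
    (fun s => !(decide (s < a) && decide (s < b))) = highList st a b := rfl

theorem sum_fiber (ok : Ok D st top) (hψ : ψ 1 ≠ 1) {a b : st.Co} (h : chkPair D st a b = true)
    {u : F} (hu : u ≠ 0) (s : st.Co) :
    (∑ p : Fˣ × ({r : st.Co // r < s ∧ st.nbr D s r = true} → F),
        if cell (⟨s, p⟩ : CellIdx D F st) a = 0 then ψ (u * cell (⟨s, p⟩ : CellIdx D F st) b) else 0) =
      (if s < a ∧ s < b then
        (((Fintype.card F - 1) * Fintype.card F ^ (st.low D s).length : ℕ) : ℂ) else 0) -
        if s = b then (Fintype.card F : ℂ) ^ (st.low D b).length else 0 := by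
  simp only [chkPair, Bool.and_eq_true, List.all_eq_true, Bool.not_eq_true', decide_eq_false_iff_not,
    Bool.or_eq_true, decide_eq_true_eq] at h
  obtain ⟨hab, h⟩ := h
  obtain ⟨⟨⟨hs1, hs2⟩ | rfl⟩ | ⟨rfl, hsa⟩⟩ | ⟨⟨hbs, hn⟩, hcase⟩ := h s (List.mem_finRange _)
  · rw [if_pos ⟨hs1, hs2⟩, if_neg hs2.ne, sub_zero]
    rw [Finset.sum_congr rfl (g := fun _ => (1 : ℂ)) (fun p _ => by
      obtain ⟨-, h2, -⟩ := cell_apply ok (⟨s, p⟩ : CellIdx D F st)
      rw [if_pos (h2 a hs1), h2 b hs2, mul_zero, AddChar.map_zero_eq_one]),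
      Finset.sum_const, Finset.card_univ, Fintype.card_prod, Fintype.card_units, Fintype.card_fun,
      card_low, nsmul_eq_mul, mul_one]
  · rw [if_neg (fun hh => lt_irrefl _ hh.1), if_neg hab, sub_zero]
    refine Finset.sum_eq_zero fun p _ => if_neg ?_
    rw [(cell_apply ok (⟨s, p⟩ : CellIdx D F st)).1]
    exact p.1.ne_zero
  · rw [if_neg (fun hh => lt_irrefl _ hh.2), if_pos rfl, zero_sub]
    rw [Finset.sum_congr rfl (g := fun p => ψ (u * (p.1 : F))) (fun p _ => by
      obtain ⟨h1, h2, -⟩ := cell_apply ok (⟨s, p⟩ : CellIdx D F st)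
      rw [if_pos (h2 a hsa), h1]), Fintype.sum_prod_type]
    simp only [Finset.sum_const, Finset.card_univ, Fintype.card_fun, card_low, nsmul_eq_mul]
    rw [← Finset.mul_sum]
    have e : ∑ x : Fˣ, ψ (u * (x : F)) = -1 := by
      have h0 : ∑ c : F, ψ (u * c) = 0 :=
        (Equiv.sum_comp (Equiv.mulLeft₀ u hu) (fun c => ψ c)).trans
          (AddChar.sum_eq_zero_of_ne_one (fun e => hψ (by rw [e]; rfl)))
      rw [← Finset.add_sum_erase _ _ (Finset.mem_univ (0 : F)), mul_zero, AddChar.map_zero_eq_one,
        add_eq_zero_iff_neg_eq] at h0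
      rw [h0]
      refine Finset.sum_nbij (fun x : Fˣ => (x : F)) (fun x _ => Finset.mem_erase.2
        ⟨x.ne_zero, Finset.mem_univ _⟩) (Units.val_injective.injOn) (fun c hc => ?_) (fun _ _ => rfl)
      exact ⟨Units.mk0 c (Finset.ne_of_mem_erase hc), Finset.mem_coe.2 (Finset.mem_univ _), rfl⟩
    rw [e]
    push_cast
    ring
  · rw [if_neg (fun hh => lt_asymm hh.2 hbs), if_neg hbs.ne', sub_zero, Fintype.sum_prod_type]
    refine Finset.sum_eq_zero fun c _ => ?_
    set f := fun ν : {r : st.Co // r < s ∧ st.nbr D s r = true} → F =>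
      if cell (⟨s, c, ν⟩ : CellIdx D F st) a = 0 then ψ (u * cell (⟨s, c, ν⟩ : CellIdx D F st) b)
        else 0 with hf
    have hb : ∀ ν, cell (⟨s, c, ν⟩ : CellIdx D F st) b = ν ⟨b, hbs, hn⟩ := fun ν =>
      (cell_apply ok (⟨s, c, ν⟩ : CellIdx D F st)).2.2 ⟨b, hbs, hn⟩
    set δ : {r : st.Co // r < s ∧ st.nbr D s r = true} → F := Pi.single ⟨b, hbs, hn⟩ u⁻¹ with hδ
    have ha : ∀ ν, cell (⟨s, c, ν + δ⟩ : CellIdx D F st) a = cell (⟨s, c, ν⟩ : CellIdx D F st) a := by
      intro ν
      obtain ⟨-, h2, h3⟩ := cell_apply ok (⟨s, c, ν⟩ : CellIdx D F st)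
      obtain ⟨-, h2', h3'⟩ := cell_apply ok (⟨s, c, ν + δ⟩ : CellIdx D F st)
      rcases hcase with hc | ⟨hc, hna⟩
      · rw [h2' a hc, h2 a hc]
      · rw [h3' ⟨a, hc, hna⟩, h3 ⟨a, hc, hna⟩, hδ]
        show (ν + _ : _ → F) _ = ν _
        rw [Pi.add_apply, Pi.single_eq_of_ne (fun e => hab (congrArg Subtype.val e)), add_zero]
    have hshift : ∀ ν, f (ν + δ) = ψ 1 * f ν := by
      intro ν
      simp only [hf, ha, mul_ite, mul_zero]
      congr 1
      rw [hb, hb, hδ, Pi.add_apply, Pi.single_eq_same, mul_add, mul_inv_cancel₀ hu,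
        AddChar.map_add_eq_mul, mul_comm]
    have hsum : ∑ ν, f ν = ψ 1 * ∑ ν, f ν := by
      rw [Finset.mul_sum, ← Finset.sum_congr rfl (fun ν _ => hshift ν)]
      exact (Equiv.sum_comp (Equiv.addRight δ) f).symm
    by_contra hne
    exact hψ (mul_right_cancel₀ hne (by rw [← hsum, one_mul]))

variable (ok : Ok D st top) (hG : Good S R st P) (hp : ProjHyp (uM S ok.shape hG) ψ P)

include hG in
/-- The deficiency of a product of two root elements, summed over the first parameter. -/
theorem sum_pair (h : Simple1 ok hG hp) {a b : st.Co} (hab : chkPair D st a b = true) {u : F}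
    (hu : u ≠ 0) :
    (∑ φ : st.Co → F, if φ a = 0 then ψ (u * φ b) * (mult hp φ : ℂ) else 0) +
        (((Fintype.card F - 1) * (((highList st a b).map fun s => (st.low D s).length).map
          fun e => Fintype.card F ^ e).sum : ℕ) : ℂ) +
        (Fintype.card F : ℂ) ^ (st.low D b).length = P.trace := by
  set g := fun φ : st.Co → F => if φ a = 0 then ψ (u * φ b) * (mult hp φ : ℂ) else 0 with hg
  have e1 : ∑ φ, g φ = (mult hp (0 : st.Co → F) : ℂ) +
      ∑ i : CellIdx D F st, if cell i a = 0 then ψ (u * cell i b) else 0 := by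
    rw [← Finset.add_sum_erase _ _ (Finset.mem_univ (0 : st.Co → F))]
    congr 1
    · simp [hg]
    · have e : ∑ i : CellIdx D F st, (if cell i a = 0 then ψ (u * cell i b) else 0) =
          ∑ i : CellIdx D F st, g (cell i) := Finset.sum_congr rfl fun i _ => by
        simp only [hg, mult_cell ok hG hp, h.one, Nat.cast_one, mul_one]
      rw [e, ← Finset.sum_image (f := g) (cell_injective ok).injOn]
      symm
      refine Finset.sum_subset (fun φ hφ => ?_) (fun φ hφ hnc => ?_)
      · obtain ⟨i, -, rfl⟩ := Finset.mem_image.1 hφ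
        exact Finset.mem_erase.2 ⟨cell_ne_zero ok i, Finset.mem_univ _⟩
      · have := mult_eq_indicator ok hG hp h.pure h.one (Finset.ne_of_mem_erase hφ)
        rw [if_neg hnc] at this
        simp [hg, this]
  have hsplit : ∀ f : CellIdx D F st → ℂ, ∑ i, f i = ∑ s, ∑ p, f ⟨s, p⟩ := fun f =>
    Fintype.sum_sigma f
  have hcard : (Fintype.card (CellIdx D F st) : ℂ) =
      ((Finset.univ.filter fun i : CellIdx D F st =>
        (decide (i.1 < a) && decide (i.1 < b)) = true).card : ℂ) +
      (((Fintype.card F - 1) * (((highList st a b).map fun s => (st.low D s).length).map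
          fun e => Fintype.card F ^ e).sum : ℕ) : ℂ) := by
    rw [← highList_filter, ← card_cells_filter (fun s => !(decide (s < a) && decide (s < b))),
      ← Nat.cast_add, ← Finset.card_univ, ← Finset.card_filter_add_card_filter_not
      (fun i : CellIdx D F st => (decide (i.1 < a) && decide (i.1 < b)) = true)]
    congr 3
    ext i
    simp only [Finset.mem_filter, Finset.mem_univ, true_and, Bool.and_eq_true, decide_eq_true_eq,
      Bool.not_eq_true', Bool.and_eq_false_iff, decide_eq_false_iff_not]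
    tauto
  rw [show (∑ φ : st.Co → F, if φ a = 0 then ψ (u * φ b) * (mult hp φ : ℂ) else 0) = ∑ φ, g φ from rfl,
    e1, trace_eq_next ok hG hp h, nextP, trace_proj hp, hcard, hsplit,
    Finset.sum_congr rfl (fun s _ => sum_fiber ok hp.psi hab hu s), Finset.sum_sub_distrib,
    Finset.sum_ite_eq' Finset.univ b, if_pos (Finset.mem_univ _)]
  have e2 : (∑ s : st.Co, if s < a ∧ s < b then
      (((Fintype.card F - 1) * Fintype.card F ^ (st.low D s).length : ℕ) : ℂ) else 0) =
      ((Finset.univ.filter fun i : CellIdx D F st =>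
        (decide (i.1 < a) && decide (i.1 < b)) = true).card : ℂ) := by
    rw [Finset.natCast_card_filter, hsplit]
    refine Finset.sum_congr rfl fun s _ => ?_
    by_cases hc : s < a ∧ s < b
    · rw [if_pos hc]
      rw [Finset.sum_congr rfl (g := fun _ => (1 : ℂ)) (fun p _ => if_pos (by simpa using hc)),
        Finset.sum_const, Finset.card_univ, Fintype.card_prod, Fintype.card_units, Fintype.card_fun,
        card_low, nsmul_eq_mul, mul_one]
    · rw [if_neg hc]
      exact (Finset.sum_eq_zero fun p _ => if_neg (by simpa using hc)).symm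
  rw [e2]
  ring

end CfsgLib.E8Deg
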