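import Cfsg.Agent.E8Deg.Center
import Cfsg.Agent.E8Deg.Pair
import Cfsg.Agent.E8Deg.Data.Step0

/-!
The Heisenberg step of type E8: the degree, the trace of a highest root element, and the deficiency
of a root element of the Levi factor on the fixed points of the radical.
-/

set_option autoImplicit false
set_option linter.unusedSectionVars false

open scoped Classical

noncomputable section

namespace CfsgLib.E8Deg

open Matrix Cfsg.Lie CfsgLib.Chevalley

variable {F : Type*} [Field F] [Fintype F] {k : ℕ}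
  (R : ↥(chevE8.group F) →* Matrix (Fin k) (Fin k) ℂ) {ψ : AddChar F ℂ}

/-- The weights of the centre are scalars. -/
def eZ : (stepZ.Co → F) ≃ F where
  toFun φ := φ topZ
  invFun c := Pi.single topZ c
  left_inv φ := by
    funext r
    show (Pi.single topZ (φ topZ) : stepZ.Co → F) r = φ r
    rw [show r = topZ from Subsingleton.elim (α := Fin 1) r topZ, Pi.single_eq_same]
  right_inv c := Pi.single_eq_same _ _

/-- The multiplicity of the nontrivial characters of the centre, divided by `q ^ 28`. -/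
def multZ (hψ : ψ 1 ≠ 1) : ℕ :=
  mult (hZ R hψ) (Pi.single topZ (1 : F)) / Fintype.card F ^ 28

theorem mult_centre (hψ : ψ 1 ≠ 1) {φ : stepZ.Co → F} (hφ : φ ≠ 0) :
    mult (hZ R hψ) φ = multZ R hψ * Fintype.card F ^ 28 := by
  have h1 : φ = Pi.single topZ (φ topZ) := (eZ.left_inv φ).symm
  rw [h1, mult_single_top okZ (gZ R) (hZ R hψ) (topZ_ne_zero hφ), multZ, Nat.div_mul_cancel]
  exact dvd_mult R hψ (fun h => one_ne_zero (α := F) (by
    simpa using congrFun h topZ))

theorem degree_centre (hψ : ψ 1 ≠ 1) :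
    k = mult (hZ R hψ) (0 : stepZ.Co → F) +
      (Fintype.card F - 1) * (multZ R hψ * Fintype.card F ^ 28) := by
  have h : (∑ φ : stepZ.Co → F, mult (hZ R hψ) φ) = k :=
    sum_mult_nat okZ (gZ R) (hZ R hψ) (a := k) (by simp)
  rw [← Finset.add_sum_erase _ _ (Finset.mem_univ (0 : stepZ.Co → F)),
    Finset.sum_congr rfl (fun φ hφ => mult_centre R hψ (Finset.ne_of_mem_erase hφ)), Finset.sum_const,
    Finset.card_erase_of_mem (Finset.mem_univ _), Finset.card_univ, Fintype.card_congr eZ,
    smul_eq_mul] at h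
  exact h.symm

theorem trace_top (hψ : ψ 1 ≠ 1) {t : F} (ht : t ≠ 0) :
    (R (gx sysE8 239 t)).trace =
      (k : ℂ) - (multZ R hψ : ℂ) * (Fintype.card F : ℂ) ^ 29 := by
  have h := deficiency_sum okZ (gZ R) (hZ R hψ) t
  rw [mul_one, Matrix.trace_one, Fintype.card_fin, ← Equiv.sum_comp eZ.symm,
    ← Finset.add_sum_erase _ _ (Finset.mem_univ (0 : F))] at h
  simp only [eZ, Equiv.coe_fn_symm_mk, Pi.single_eq_same] at h
  rw [mul_zero, AddChar.map_zero_eq_one, sub_self, zero_mul, zero_add,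
    Finset.sum_congr rfl (g := fun c => (1 - ψ (t * c)) *
      ((multZ R hψ * Fintype.card F ^ 28 : ℕ) : ℂ))
      (fun c hc => by
        rw [mult_centre R hψ (fun e => Finset.ne_of_mem_erase hc (by simpa using congrFun e topZ))]),
    ← Finset.sum_mul, sum_one_sub_psi hψ ht] at h
  rw [show stepZ.root topZ = 239 from rfl] at h
  push_cast at h
  rw [show (29 : ℕ) = 28 + 1 from rfl, pow_succ]
  linear_combination -h

theorem trace_PZ (hψ : ψ 1 ≠ 1) : (PZ R ψ).trace = (mult (hZ R hψ) (0 : stepZ.Co → F) : ℂ) :=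
  trace_proj (hZ R hψ) 0

theorem prev0_cent : ∀ r ∈ step0.prev, chkCent chevE8 r = true := by decide +kernel

/-- The fixed points of the centre are good for the radical. -/
theorem g0 (hψ : ψ 1 ≠ 1) : Good sysE8 R step0 (PZ R ψ) := by
  refine ⟨proj_sq (hZ R hψ) 0, fun r hr t => comm_Pc_gx R (prev0_cent r hr) t 0, fun c => ?_,
    fun z hz t => ?_⟩
  · have h := (moves_gt sysE8 (gZ R) okZ.shape c).R_mul_proj (ψ := ψ) 0
    rwa [show bt chevE8 stepZ c (0 : stepZ.Co → F) = 0 by funext j; simp [bt]] at h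
  · rw [show step0.ctr = [239] from rfl, List.mem_singleton] at hz
    subst hz
    rw [R_gx_mul_Pc, show (0 : stepZ.Co → F) topZ = 0 from rfl, mul_zero, AddChar.map_zero_eq_one,
      one_smul]

theorem p0 (hψ : ψ 1 ≠ 1) : ProjHyp (uM sysE8 ok0.shape (g0 R hψ)) ψ (PZ R ψ) :=
  good_projHyp hψ ok0 (g0 R hψ)

theorem top_facts : step0.root top0 = 238 ∧ wimg chevE8 [7] 239 = 238 ∧
    wimg chevE8 [6, 7] 239 = 237 ∧ wimg chevE8 [6, 7] 226 = 228 ∧ step0.beta = 226 ∧
    chkPartner chevE8 238 120 = true ∧ chkPartner chevE8 237 122 = true ∧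
    chkPartner chevE8 228 160 = true ∧ chkSwap chevE8 228 122 = true ∧
    chkCent chevE8 228 = true := by
  decide +kernel

/-- The deficiency of a highest root of the radical on the fixed points of the centre. -/
theorem deficiency_top0 (hψ : ψ 1 ≠ 1) {t : F} (ht : t ≠ 0) :
    (PZ R ψ).trace - (R (gx sysE8 (step0.root top0) t) * PZ R ψ).trace =
      (multZ R hψ : ℂ) * (Fintype.card F : ℂ) ^ (27 + 1) := by
  obtain ⟨hroot, hw, -, -, -, hpart, -⟩ := top_facts
  obtain ⟨g, hg⟩ := exists_conj sysE8 R [7] (by decide)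
  obtain ⟨c, hc⟩ := hg 239 (show 239 < 240 by norm_num)
  have e := hc (((c⁻¹ : Fˣ) : F) * t)
  rw [hw, ← mul_assoc (c : F), ← Units.val_mul, mul_inv_cancel, Units.val_one, one_mul] at e
  rw [hroot, ← trace_noncentral R hψ hpart ht, trace_conj e,
    trace_top R hψ (mul_ne_zero (Units.ne_zero _) ht), trace_PZ R hψ]
  have hq : (1 : ℕ) ≤ Fintype.card F := Fintype.card_pos
  have hk := congrArg (fun n : ℕ => (n : ℂ)) (degree_centre R hψ)
  push_cast [Nat.cast_sub hq] at hk
  rw [show (29 : ℕ) = 28 + 1 from rfl, pow_succ]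
  linear_combination -hk

/-- The coordinates of the orthogonal pair. -/
def coA : step0.Co := ⟨54, by decide⟩

/-- The coordinates of the orthogonal pair. -/
def coB : step0.Co := ⟨45, by decide⟩

theorem pair0 : chkPair chevE8 step0 coA coB = true := by decide +kernel

theorem high0 : (highList step0 coA coB).map (fun s => (step0.low chevE8 s).length) =
    [18, 19, 20, 21, 22, 22, 23, 24, 25, 26, 27] ∧ (step0.low chevE8 coB).length = 18 ∧
    step0.root coA = 237 ∧ step0.root coB = 228 := by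
  decide +kernel

/-- The deficiency of the next root element on the fixed points of the radical. -/
theorem deficiency1 (hψ : ψ 1 ≠ 1) (h : Simple1 ok0 (g0 R hψ) (p0 R hψ)) {t : F} (ht : t ≠ 0) :
    (nextP chevE8 sysE8 R ok0.shape ψ (PZ R ψ) (g0 R hψ)).trace -
        (R (gx sysE8 226 t) * nextP chevE8 sysE8 R ok0.shape ψ (PZ R ψ) (g0 R hψ)).trace =
      (Fintype.card F : ℂ) ^ (16 + 1) := by
  obtain ⟨-, -, hwa, hwb, hbeta, -, hpa, hpb, hsw, hcb⟩ := top_facts
  obtain ⟨hhigh, hlb, hra, hrb⟩ := high0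
  set q := Fintype.card F with hq
  obtain ⟨g, hg⟩ := exists_conj sysE8 R [6, 7] (by decide)
  obtain ⟨c, hc⟩ := hg 239 (show 239 < 240 by norm_num)
  obtain ⟨d, hd⟩ := hg 226 (show 226 < 240 by norm_num)
  rw [hwa] at hc
  rw [hwb] at hd
  set u : F := (d : F) * t with hu
  have hu0 : u ≠ 0 := mul_ne_zero (Units.ne_zero _) ht
  set B := R (gx sysE8 226 t) with hB
  have hsum_s : ∑ s : F, (R (gx sysE8 239 s) * B).trace = (q : ℂ) * (B * PZ R ψ).trace := by
    have e1 : ∀ s : F, (R (gx sysE8 239 s) * B).trace =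
        ∑ φ : stepZ.Co → F, ψ (s * φ topZ) * (Pc R ψ φ * B).trace := by
      intro s
      conv_lhs => rw [← mul_one (R (gx sysE8 239 s)), ← sum_proj (hZ R hψ), Finset.mul_sum,
        Finset.sum_mul, Matrix.trace_sum]
      refine Finset.sum_congr rfl fun φ _ => ?_
      rw [show proj (UZ R) ψ 1 φ = Pc R ψ φ from rfl, R_gx_mul_Pc, smul_mul_assoc,
        Matrix.trace_smul, smul_eq_mul]
    rw [Finset.sum_congr rfl (fun s _ => e1 s), Finset.sum_comm,
      Finset.sum_eq_single (0 : stepZ.Co → F) (fun φ _ hφ => by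
        rw [← Finset.sum_mul, show ∑ s : F, ψ (s * φ topZ) = 0 from
          (Equiv.sum_comp (Equiv.mulRight₀ (φ topZ) (topZ_ne_zero hφ)) (fun c => ψ c)).trans
            (AddChar.sum_eq_zero_of_ne_one (fun e => hψ (by rw [e]; rfl))), zero_mul])
        (fun h0 => absurd (Finset.mem_univ _) h0)]
    simp only [Pi.zero_apply, mul_zero, AddChar.map_zero_eq_one, one_mul, Finset.sum_const,
      Finset.card_univ, nsmul_eq_mul]
    rw [Matrix.trace_mul_comm, hq]
  have hpair : ∀ s : F, (R (gx sysE8 237 s) * R (gx sysE8 228 u)).trace =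
      ∑ φ : step0.Co → F, ψ (s * φ coA) * ψ (u * φ coB) * (mult (p0 R hψ) φ : ℂ) := by
    intro s
    have e : (R (gx sysE8 237 s) * R (gx sysE8 228 u)).trace =
        (R (gx sysE8 237 s) * R (gx sysE8 228 u) * PZ R ψ).trace := by
      by_cases hs : s = 0
      · subst hs
        rw [gx_zero, map_one, one_mul]
        exact trace_noncentral R hψ hpb hu0
      · exact trace_noncentral_two R hψ hpa hsw hcb hs u
    have e2 : uM sysE8 ok0.shape (g0 R hψ)
        (Multiplicative.ofAdd (Pi.single coA s + Pi.single coB u)) * PZ R ψ =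
        R (gx sysE8 237 s) * R (gx sysE8 228 u) * PZ R ψ := by
      have hcomm := root_comm sysE8 (g0 R hψ) ok0.shape coB u
      rw [hrb] at hcomm
      rw [ofAdd_add, map_mul, mul_assoc, uM_single_mul_P, uM_single, hra, hrb, ext, add_mul,
        sub_mul, one_mul, mul_assoc, ← mul_assoc (PZ R ψ), ← hcomm, mul_assoc (R (gx sysE8 228 u)),
        (g0 R hψ).idem, sub_self, add_zero, ← mul_assoc]
    rw [e, ← e2, trace_R_u_mul_P (p0 R hψ)]
    refine Finset.sum_congr rfl fun φ _ => ?_
    rw [add_dotProduct, single_dotProduct, single_dotProduct, AddChar.map_add_eq_mul]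
  have hconj : ∑ s : F, (R (gx sysE8 239 s) * B).trace =
      ∑ s : F, (R (gx sysE8 237 s) * R (gx sysE8 228 u)).trace := by
    rw [← Equiv.sum_comp (Equiv.mulLeft₀ (c : F) (Units.ne_zero _))
      (fun s => (R (gx sysE8 237 s) * R (gx sysE8 228 u)).trace)]
    refine Finset.sum_congr rfl fun s _ => ?_
    show _ = (R (gx sysE8 237 ((c : F) * s)) * R (gx sysE8 228 u)).trace
    rw [hB, ← map_mul, ← map_mul]
    refine (trace_conj (g := g) ?_).symm
    rw [← mul_assoc, hc, mul_assoc, hd, ← mul_assoc]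
  have hE : (B * PZ R ψ).trace =
      ∑ φ : step0.Co → F, if φ coA = 0 then ψ (u * φ coB) * (mult (p0 R hψ) φ : ℂ) else 0 := by
    have hq0 : (q : ℂ) ≠ 0 := Nat.cast_ne_zero.2 Fintype.card_ne_zero
    refine mul_left_cancel₀ hq0 ?_
    rw [← hsum_s, hconj, Finset.sum_congr rfl (fun s _ => hpair s), Finset.sum_comm, Finset.mul_sum]
    refine Finset.sum_congr rfl fun φ _ => ?_
    rw [← Finset.sum_mul, ← Finset.sum_mul]
    split_ifs with h0
    · simp only [h0, mul_zero, AddChar.map_zero_eq_one, Finset.sum_const, Finset.card_univ,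
        nsmul_eq_mul, mul_one, hq]
      ring
    · rw [show ∑ s : F, ψ (s * φ coA) = 0 from
        (Equiv.sum_comp (Equiv.mulRight₀ (φ coA) h0) (fun c => ψ c)).trans
          (AddChar.sum_eq_zero_of_ne_one (fun e => hψ (by rw [e]; rfl))), zero_mul, zero_mul, mul_zero]
  have hD := sum_pair ok0 (g0 R hψ) (p0 R hψ) h pair0 hu0
  rw [← hE, hhigh, hlb] at hD
  have hs := deficiency_split ok0 (g0 R hψ) (p0 R hψ) h (split := true) (Or.inl rfl) beta0 wit0 ht
  rw [hbeta, moved0, ← hB] at hs
  simp only [List.map_cons, List.map_nil, List.sum_cons, List.sum_nil] at hs hD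
  push_cast [Nat.cast_sub (show 1 ≤ Fintype.card F from Fintype.card_pos)] at hs hD
  rw [hq]
  linear_combination -hs - hD

end CfsgLib.E8Deg
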