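import Cfsg.Agent.E8Deg.Chain
import Cfsg.Agent.E6Deg.RootClass
import Cfsg.Agent.Chevalley.Weights.E8

/-!
The minimal degree of a nontrivial irreducible representation of `E₈(q)`.
-/

set_option autoImplicit false
set_option linter.unusedSectionVars false

open scoped Classical

noncomputable section

namespace CfsgLib.E8Deg

open Cfsg.Lie CfsgLib.Chevalley

theorem chkHighE8 : chkHigh chevE8 tabE8 = true := by decide +kernel

theorem highE8 : sysE8.HighFacts := by
  have hc := chkHighE8
  simp only [chkHigh, Bool.and_eq_true, decide_eq_true_eq, List.all_eq_true, List.mem_range] at hc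
  exact ⟨hc.1.1.1, hc.1.1.2, hc.1.2, hc.2⟩

theorem orthoE8 : chkOrtho chevE8 [77, 98, 104, 109, 113, 116, 118] = true := by decide +kernel

variable {F : Type*} [Field F] [Fintype F] [Fintype ↥(chevE8.group F)]

set_option maxRecDepth 20000 in
set_option maxHeartbeats 1000000 in
/-- The size of the class of a long root element of `E₈(q)`. -/
theorem card_rootClass : (E6Deg.topClass sysE8 F).card = classNum (Fintype.card F) := by
  set q := Fintype.card F with hq
  have hq2 : 2 ≤ q := Fintype.one_lt_card
  have e := E6Deg.card_topClass_lenSum sysE8 F highE8 orthoE8 (J := List.range 7)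
    (by decide +kernel) (j₀ := 7) (by decide +kernel) (by decide +kernel)
  have hw : ∀ i < chevE8.rank, ∀ s < chevE8.nroots, chevE8.reflectRoot i s = tabE8.wF i s :=
    fun i hi s hs => reflectRoot_wF (checkedE8.cW i hi) hs
  rw [show List.range chevE8.rank = levE87.top from rfl, sysE8.lenSum_level F hw chkLevE87,
    show levE87.sub = List.range 7 from rfl, ← hq] at e
  have hpos : (0 : ℤ) < sysE8.lenSum (List.range 7) q := by
    have h0 : (0 : ℤ) < q := by exact_mod_cast (show 0 < q by omega)
    rw [show List.range 7 = levE86.top from rfl, sysE8.lenSum_level F hw chkLevE86,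
      show levE86.sub = List.range 6 from rfl, show List.range 6 = levE85.top from rfl,
      sysE8.lenSum_level F hw chkLevE85, show levE85.sub = List.range 5 from rfl,
      show List.range 5 = levE84.top from rfl, sysE8.lenSum_level F hw chkLevE84,
      show levE84.sub = List.range 4 from rfl, show List.range 4 = levE83.top from rfl,
      sysE8.lenSum_level F hw chkLevE83, show levE83.sub = List.range 3 from rfl,
      show List.range 3 = levE82.top from rfl, sysE8.lenSum_level F hw chkLevE82,
      show levE82.sub = List.range 2 from rfl, show List.range 2 = levE81.top from rfl,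
      sysE8.lenSum_level F hw chkLevE81, show levE81.sub = List.range 1 from rfl,
      show List.range 1 = levE80.top from rfl, sysE8.lenSum_level F hw chkLevE80,
      show levE80.sub = List.range 0 from rfl, show List.range 0 = [] from rfl, Sys.lenSum_nil]
    have hp : ∀ l : List ℕ, l ≠ [] → (0 : ℤ) < (l.map fun e => (q : ℤ) ^ e).sum := fun l hl => by
      cases l with
      | nil => exact absurd rfl hl
      | cons a l =>
        rw [List.map_cons, List.sum_cons]
        exact add_pos_of_pos_of_nonneg (pow_pos h0 a) (List.sum_nonneg fun x hx => by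
          obtain ⟨i, -, rfl⟩ := List.mem_map.1 hx
          exact (pow_pos h0 i).le)
    repeat' apply mul_pos
    all_goals first | exact hp _ (List.cons_ne_nil _ _) | exact one_pos
  have h30 : 1 ≤ q ^ 30 := Nat.one_le_pow _ _ (by omega)
  rw [classNum]
  zify [h30]
  simp only [levE87, List.map_cons, List.map_nil, List.sum_cons, List.sum_nil] at e
  push_cast [Nat.cast_sub (show 1 ≤ q by omega)] at e
  refine mul_right_cancel₀ hpos.ne' (e.trans ?_)
  ring

omit [Fintype ↥(chevE8.group F)] in
/-- The bound. -/
theorem degree_bound {k : ℕ} (ρ : Representation ℂ (chevE8.group F) (Fin k → ℂ))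
    (hρ : ρ.IsIrreducible) (hk2 : 2 ≤ k) :
    Fintype.card F * (Fintype.card F ^ 12 + 1) * (Fintype.card F ^ 10 + 1) *
      (Fintype.card F ^ 6 + 1) ≤ k := by
  haveI : Fintype ↥(chevE8.group F) := Fintype.ofFinite _
  let R : ↥(chevE8.group F) →* Matrix (Fin k) (Fin k) ℂ :=
    (LinearMap.toMatrixAlgEquiv' : Module.End ℂ (Fin k → ℂ) ≃ₐ[ℂ] Matrix (Fin k) (Fin k) ℂ).toMonoidHom.comp ρ
  haveI : Nonempty (Fin k) := ⟨⟨0, by omega⟩⟩
  haveI : IsSimpleOrder (Subrepresentation ρ) := hρ
  have hschur : ∀ X, (∀ g, X * R g = R g * X) → ∃ c : ℂ, X = c • 1 := by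
    intro X hX
    let L : Module.End ℂ (Fin k → ℂ) := Matrix.toLinAlgEquiv' X
    have hL : ∀ g, L * ρ g = ρ g * L := fun g => by
      have e1 := congrArg (Matrix.toLinAlgEquiv' : Matrix (Fin k) (Fin k) ℂ ≃ₐ[ℂ] _) (hX g)
      rw [map_mul, map_mul] at e1
      have e2 : (Matrix.toLinAlgEquiv' : Matrix (Fin k) (Fin k) ℂ ≃ₐ[ℂ] _) (R g) = ρ g :=
        Matrix.toLinAlgEquiv'_toMatrixAlgEquiv' _
      rwa [e2] at e1
    obtain ⟨c, hc⟩ := Module.End.exists_eigenvalue L
    have hinv : ∀ g, ∀ x ∈ L.eigenspace c, ρ g x ∈ L.eigenspace c := fun g x hx => by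
      rw [Module.End.mem_eigenspace_iff] at hx ⊢
      have := LinearMap.congr_fun (hL g) x
      rw [Module.End.mul_apply, Module.End.mul_apply, hx, map_smul] at this
      exact this
    rcases eq_bot_or_eq_top (⟨L.eigenspace c, fun g x hx => hinv g x hx⟩ : Subrepresentation ρ) with h | h
    · exact absurd (congrArg Subrepresentation.toSubmodule h) hc
    · refine ⟨c, ?_⟩
      have htop : L.eigenspace c = ⊤ := congrArg Subrepresentation.toSubmodule h
      apply (Matrix.toLinAlgEquiv' : Matrix (Fin k) (Fin k) ℂ ≃ₐ[ℂ] _).injective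
      refine LinearMap.ext fun x => ?_
      show L x = _
      have hx : x ∈ L.eigenspace c := htop ▸ Submodule.mem_top
      rw [Module.End.mem_eigenspace_iff.1 hx, map_smul, map_one]
      rfl
  have hR : ∃ g, R g ≠ 1 := by
    by_contra hc
    push Not at hc
    obtain ⟨c, hc'⟩ := hschur (Matrix.single ⟨0, by omega⟩ ⟨1, by omega⟩ 1)
      (fun g => by rw [hc g, mul_one, one_mul])
    have := congrFun (congrFun hc' ⟨0, by omega⟩) ⟨1, by omega⟩
    simp [Matrix.one_apply] at this
  by_contra hlt
  push Not at hlt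
  change k < degNum (Fintype.card F) at hlt
  obtain ⟨hT, h2, h3⟩ := chain R hR hlt
  have hx : E6Deg.topElt sysE8 F = gx sysE8 239 1 := Subtype.ext (E6Deg.topElt_eq sysE8 F highE8)
  have hdvd := E6Deg.degree_dvd_class sysE8 F R (by omega) (m := Fintype.card F ^ 29)
    (by rw [hx, hT, Nat.cast_pow]) hschur
  rw [card_rootClass] at hdvd
  obtain ⟨p, hp⟩ := CharP.exists F
  obtain ⟨n, hn1, hn2⟩ := FiniteField.card F p
  exact no_degree ⟨p, n, hn1, hn2⟩ Fintype.one_lt_card hlt h2 h3 hdvd

end CfsgLib.E8Deg
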