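import Cfsg.Agent.E8Deg.Cells

/-!
The structure of the weights of one step, and the deficiency of the next root element.
-/

set_option autoImplicit false
set_option linter.unusedSectionVars false

open scoped Classical

noncomputable section

namespace CfsgLib.E8Deg

open Matrix Cfsg.Lie CfsgLib.Chevalley

variable {D : ChevalleyDatum} {S : Sys D} {F : Type*} [Field F] [Fintype F] {k : ℕ} {st : Step}
  {top : st.Co} {R : ↥(D.group F) →* Matrix (Fin k) (Fin k) ℂ} {P : Matrix (Fin k) (Fin k) ℂ}
  {ψ : AddChar F ℂ}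

/-- A good projection commutes with the radical. -/
theorem good_projHyp (hψ : ψ 1 ≠ 1) (ok : Ok D st top) (hG : Good S R st P) :
    ProjHyp (uM S ok.shape hG) ψ P := by
  refine ⟨hψ, hG.idem, fun v => ?_⟩
  obtain ⟨w, rfl⟩ := Multiplicative.ofAdd.surjective v
  rw [← Finset.univ_sum_single w]
  induction (Finset.univ : Finset st.Co) using Finset.induction_on with
  | empty => rw [Finset.sum_empty, ofAdd_zero, map_one, one_mul, mul_one]
  | insert a s ha ih =>
    have h1 : uM S ok.shape hG (Multiplicative.ofAdd (Pi.single a (w a))) * P =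
        P * uM S ok.shape hG (Multiplicative.ofAdd (Pi.single a (w a))) := by
      rw [uM_single, ext, add_mul, mul_add, sub_mul, mul_sub, one_mul, mul_one, mul_assoc,
        hG.idem, ← mul_assoc, ← root_comm S hG ok.shape a (w a), mul_assoc, hG.idem]
    rw [Finset.sum_insert ha, ofAdd_add, map_mul, mul_assoc, ih, ← mul_assoc, h1, mul_assoc]

variable (ok : Ok D st top) (hG : Good S R st P) (hp : ProjHyp (uM S ok.shape hG) ψ P)

/-- The weights are one orbit with multiplicity one. -/
structure Simple1 : Prop where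
  one : mult hp (Pi.single top (1 : F)) = 1
  pure : ∀ φ : st.Co → F, φ top ≠ 0 → mult hp φ ≠ 0 → Pure D top φ

include hG in
theorem deficiency_sum (t : F) :
    P.trace - (R (gx S (st.root top) t) * P).trace =
      ∑ φ : st.Co → F, (1 - ψ (t * φ top)) * (mult hp φ : ℂ) := by
  rw [← uM_single_mul_P S ok.shape hG, trace_R_u_mul_P hp, ← sum_mult hp, ← Finset.sum_sub_distrib]
  refine Finset.sum_congr rfl fun φ _ => ?_
  rw [single_dotProduct]
  ring

theorem sum_one_sub_psi (hψ : ψ 1 ≠ 1) {t : F} (ht : t ≠ 0) :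
    ∑ c ∈ Finset.univ.erase (0 : F), (1 - ψ (t * c)) = (Fintype.card F : ℂ) := by
  have h0 : ∑ c : F, ψ (t * c) = 0 :=
    (Equiv.sum_comp (Equiv.mulLeft₀ t ht) (fun c => ψ c)).trans
      (AddChar.sum_eq_zero_of_ne_one (fun e => hψ (by rw [e]; rfl)))
  have h : ∑ c : F, (1 - ψ (t * c)) = (Fintype.card F : ℂ) := by
    rw [Finset.sum_sub_distrib, Finset.sum_const, Finset.card_univ, nsmul_eq_mul, mul_one, h0,
      sub_zero]
  rw [← Finset.add_sum_erase _ _ (Finset.mem_univ (0 : F)), mul_zero, AddChar.map_zero_eq_one,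
    sub_self, zero_add] at h
  exact h

include hG in
theorem deficiency_of_simple (h : Simple1 ok hG hp) {t : F} (ht : t ≠ 0) :
    P.trace - (R (gx S (st.root top) t) * P).trace = (Fintype.card F : ℂ) ^ (st.n1 D top + 1) := by
  rw [deficiency_sum ok hG hp]
  have hmem : ∀ φ : st.Co → F, φ ∉ pureSet D top → (1 - ψ (t * φ top)) * (mult hp φ : ℂ) = 0 := by
    intro φ hφ
    by_cases h0 : φ top = 0
    · rw [h0, mul_zero, AddChar.map_zero_eq_one, sub_self, zero_mul]
    · have : mult hp φ = 0 := by
        by_contra hne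
        exact hφ (Finset.mem_filter.2 ⟨Finset.mem_univ _, h.pure φ h0 hne⟩)
      rw [this, Nat.cast_zero, mul_zero]
  rw [← Finset.sum_subset (Finset.subset_univ (pureSet D top)) (fun φ _ hφ => hmem φ hφ),
    Finset.sum_congr rfl (g := fun φ => 1 - ψ (t * φ top)) (fun φ hφ => by
      rw [mult_pure ok hG hp (Finset.mem_filter.1 hφ).2, h.one, Nat.cast_one, mul_one]),
    sum_pureSet ok (fun c => 1 - ψ (t * c)), sum_one_sub_psi hp.psi ht, nsmul_eq_mul, pow_succ]
  push_cast
  rfl

theorem sum_mult_nat {a : ℕ} (ha : P.trace = a) : ∑ φ : st.Co → F, mult hp φ = a := by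
  have := sum_mult hp
  rw [ha] at this
  exact_mod_cast this

include hG in
/-- A later step. -/
theorem simple_of_deficiency
    (hδ : ∀ t : F, t ≠ 0 →
      P.trace - (R (gx S (st.root top) t) * P).trace = (Fintype.card F : ℂ) ^ (st.n1 D top + 1)) :
    Simple1 ok hG hp := by
  set q := Fintype.card F with hq
  set n := st.n1 D top
  have h2 : 2 ≤ q := Fintype.one_lt_card
  set T := Finset.univ.filter (fun χ : st.Co → F => χ top ≠ 0) with hT
  have hN : ∑ χ ∈ T, mult hp χ = (q - 1) * q ^ n := by
    have e1 : ∑ t : F, ∑ φ : st.Co → F, (1 - ψ (t * φ top)) * (mult hp φ : ℂ) =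
        (q : ℂ) * ∑ χ ∈ T, (mult hp χ : ℂ) := by
      rw [Finset.sum_comm, Finset.mul_sum, hT, Finset.sum_filter]
      refine Finset.sum_congr rfl fun φ _ => ?_
      rw [← Finset.sum_mul]
      split_ifs with h0
      · have hs : ∑ c : F, ψ (c * φ top) = 0 :=
          (Equiv.sum_comp (Equiv.mulRight₀ (φ top) h0) (fun c => ψ c)).trans
            (AddChar.sum_eq_zero_of_ne_one (fun e => hp.psi (by rw [e]; rfl)))
        rw [Finset.sum_sub_distrib, Finset.sum_const, Finset.card_univ, nsmul_eq_mul, mul_one, hs,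
          sub_zero]
      · rw [not_not.1 h0]; simp
    have e2 : ∑ t : F, ∑ φ : st.Co → F, (1 - ψ (t * φ top)) * (mult hp φ : ℂ) =
        ((q - 1 : ℕ) : ℂ) * (q : ℂ) ^ (n + 1) := by
      rw [← Finset.add_sum_erase _ _ (Finset.mem_univ (0 : F)),
        Finset.sum_eq_zero (fun φ _ => by rw [zero_mul, AddChar.map_zero_eq_one, sub_self, zero_mul]),
        zero_add, Finset.sum_congr rfl (g := fun _ => (q : ℂ) ^ (n + 1))
          (fun t ht => by rw [← deficiency_sum ok hG hp]; exact hδ t (Finset.ne_of_mem_erase ht)),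
        Finset.sum_const, Finset.card_erase_of_mem (Finset.mem_univ _), Finset.card_univ, nsmul_eq_mul]
    rw [e2, pow_succ] at e1
    have hq0 : (q : ℂ) ≠ 0 := Nat.cast_ne_zero.2 (by omega)
    have e3 : ((q - 1 : ℕ) : ℂ) * (q : ℂ) ^ n = ∑ χ ∈ T, (mult hp χ : ℂ) :=
      mul_right_cancel₀ hq0 (by rw [mul_assoc, e1, mul_comm])
    exact_mod_cast e3.symm
  have hpure : ∀ φ : st.Co → F, φ top ≠ 0 → mult hp φ ≠ 0 → Pure D top φ := by
    intro φ ht hm
    by_contra hnp
    have h := impure_count ok hG hp ht hm hnp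
    rw [← hq] at h
    rw [← hT, hN, show st.n1 D top = n from rfl] at h
    have : (q - 1) * q ^ n < q ^ (n + 2) := by
      rw [pow_add, mul_comm]
      exact Nat.mul_lt_mul_of_pos_left (by nlinarith [Nat.sub_le q 1]) (Nat.pos_of_ne_zero (by positivity))
    omega
  refine ⟨?_, hpure⟩
  have e : ∑ χ ∈ T, mult hp χ = ∑ φ ∈ pureSet (F := F) D top, mult hp φ := by
    symm
    refine Finset.sum_subset (fun φ hφ => ?_) (fun φ hφ hnp => ?_)
    · exact Finset.mem_filter.2 ⟨Finset.mem_univ _, (Finset.mem_filter.1 hφ).2.1⟩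
    · by_contra hne
      exact hnp (Finset.mem_filter.2 ⟨Finset.mem_univ _, hpure φ (Finset.mem_filter.1 hφ).2 hne⟩)
  rw [hN, Finset.sum_congr (s₁ := pureSet (F := F) D top) rfl
    (g := fun φ => (fun _ => mult hp (Pi.single top (1 : F))) (φ top))
    (fun φ hφ => mult_pure ok hG hp (Finset.mem_filter.1 hφ).2),
    sum_pureSet ok (fun _ => mult hp (Pi.single top (1 : F))), Finset.sum_const,
    Finset.card_erase_of_mem (Finset.mem_univ _), Finset.card_univ, smul_eq_mul, smul_eq_mul,
    ← mul_assoc, mul_comm (Fintype.card F ^ _), ← hq] at e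
  rw [show st.n1 D top = n from rfl] at e
  exact (Nat.eq_of_mul_eq_mul_left (Nat.mul_pos (by omega) (pow_pos (by omega) n) : 0 < (q - 1) * q ^ n)
    (by omega : (q - 1) * q ^ n * mult hp (Pi.single top (1 : F)) = (q - 1) * q ^ n * 1))

variable (D) in
/-- The projection of the next step. -/
def nextP (S : Sys D) (R : ↥(D.group F) →* Matrix (Fin k) (Fin k) ℂ) (hsh : chkShape D st = true)
    (ψ : AddChar F ℂ) (P : Matrix (Fin k) (Fin k) ℂ) (hG : Good S R st P) : Matrix (Fin k) (Fin k) ℂ :=
  proj (uM S hsh hG) ψ P 0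

include ok hG hp in
theorem good_next {st' : Step} (hsub : ∀ r ∈ st'.prev, r ∈ st.lev) (hctr : st'.ctr = []) :
    Good S R st' (nextP D S R ok.shape ψ P hG) := by
  refine ⟨proj_sq hp 0, fun r hr t => ?_, fun c => ?_, fun z hz => ?_⟩
  · have h := (moves_gx S hG ok.normal ok.shape (hsub r hr) t).R_mul_proj (ψ := ψ) 0
    rwa [show bx D st r t (0 : st.Co → F) = 0 by funext j; simp [bx]] at h
  · have h := (moves_gt S hG ok.shape c).R_mul_proj (ψ := ψ) 0
    rwa [show bt D st c (0 : st.Co → F) = 0 by funext j; simp [bt]] at h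
  · rw [hctr] at hz; exact absurd hz List.not_mem_nil

include hG in
theorem trace_mul_split (h : Simple1 ok hG hp) (g : ↥(D.group F)) :
    (R g * P).trace = (R g * (nextP D S R ok.shape ψ P hG)).trace +
      ∑ i : CellIdx D F st, (R g * proj (uM S ok.shape hG) ψ P (cell i)).trace := by
  conv_lhs => rw [← sum_proj hp, Finset.mul_sum, Matrix.trace_sum,
    ← Finset.add_sum_erase _ _ (Finset.mem_univ (0 : st.Co → F))]
  congr 1
  rw [← Finset.sum_image (f := fun φ => (R g * proj (uM S ok.shape hG) ψ P φ).trace)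
    (cell_injective ok).injOn]
  symm
  refine Finset.sum_subset (fun φ hφ => ?_) (fun φ hφ hnc => ?_)
  · obtain ⟨i, -, rfl⟩ := Finset.mem_image.1 hφ
    exact Finset.mem_erase.2 ⟨cell_ne_zero ok i, Finset.mem_univ _⟩
  · have := mult_eq_indicator ok hG hp h.pure h.one (Finset.ne_of_mem_erase hφ)
    rw [if_neg hnc] at this
    rw [proj_eq_zero hp this, mul_zero, Matrix.trace_zero]

include hG in
theorem trace_eq_next (h : Simple1 ok hG hp) :
    P.trace = ((nextP D S R ok.shape ψ P hG)).trace + (Fintype.card (CellIdx D F st) : ℂ) := by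
  have e := trace_mul_split ok hG hp h 1
  simp only [map_one, one_mul, trace_proj hp, mult_cell ok hG hp, h.one, Nat.cast_one,
    Finset.sum_const, Finset.card_univ, nsmul_eq_mul, mul_one] at e
  exact e

include ok in
theorem fixes_iff {β : ℕ} (hβ : β ∈ st.lev) (s : st.Co) {c t : F} (hc : c ≠ 0) (ht : t ≠ 0) :
    bx D st β t (Pi.single s c) = Pi.single s c ↔ st.fixes D β s = true := by
  simp only [Step.fixes, List.all_eq_true, decide_eq_true_eq, List.mem_finRange, forall_const]
  constructor
  · intro h r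
    by_contra hne
    have := congrFun h r
    rw [bx, Finset.sum_eq_single s (fun j _ hj => by rw [Pi.single_eq_of_ne hj, mul_zero])
      (fun h' => absurd (Finset.mem_univ _) h'), Pi.single_eq_same, sub_eq_self] at this
    have hN : (st.nCoef D β s r : F) ≠ 0 := by
      rcases nCoef_sign ok hβ hne with e | e <;> simp [e]
    exact mul_ne_zero ht (mul_ne_zero hN hc) this
  · intro h
    funext r
    rw [bx, Finset.sum_eq_single s (fun j _ hj => by rw [Pi.single_eq_of_ne hj, mul_zero])
      (fun h' => absurd (Finset.mem_univ _) h'), h r]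
    simp

include ok in
theorem commute_list (hb : chkBeta D st = true) (i : CellIdx D F st) (t : F) :
    Commute (((cellList i).map fun e => gx S (betF D st i.1 e.1) e.2).prod) (gx S st.beta t) := by
  simp only [chkBeta, Bool.and_eq_true, List.all_eq_true, List.contains_iff_mem] at hb
  refine Commute.list_prod_left _ _ fun g hg => ?_
  obtain ⟨e, he, rfl⟩ := List.mem_map.1 hg
  obtain ⟨hlt, hn⟩ := cellList_mem i e he
  have h1 := hb.2 i.1 (List.mem_finRange _) e.1 (by simp [Step.low, hlt, hn])
  rw [(bet_spec ok hn).1] at h1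
  simp only [← comm_eq ok.shape] at h1
  simp only [Bool.or_eq_true, decide_eq_true_eq, Bool.and_eq_true, List.isEmpty_iff] at h1
  rcases h1 with h1 | ⟨h1, h2⟩
  · rw [h1, Commute, SemiconjBy, gx_add, gx_add, add_comm]
  · by_cases he' : betF D st i.1 e.1 = st.beta
    · rw [he', Commute, SemiconjBy, gx_add, gx_add, add_comm]
    · exact gx_swap_of_nil S (lev_lt ok.shape hb.1) (lev_lt ok.shape (bet_spec ok hn).2.1) he'
        h1 h2 t e.2

theorem exists_ne_zero_ne_neg_one (h3 : 3 ≤ Fintype.card F) : ∃ ν : F, ν ≠ 0 ∧ 1 + ν ≠ 0 := by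
  by_contra hc
  push Not at hc
  have hsub : (Finset.univ : Finset F) ⊆ {0, -1} := fun ν _ => by
    by_cases h0 : ν = 0
    · simp [h0]
    · simp [eq_neg_of_add_eq_zero_right (hc ν h0)]
  have h1 := (Finset.card_le_card hsub).trans Finset.card_le_two
  rw [Finset.card_univ] at h1
  omega

include hG in
theorem lam_beta (h : Simple1 ok hG hp) {split : Bool} (hsq : split = true ∨ 3 ≤ Fintype.card F)
    (hb : chkBeta D st = true) (hw : chkWit D st split = true) (i : CellIdx D F st)
    (hfix : st.fixes D st.beta i.1 = true) (t : F) :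
    lam R (uM S ok.shape hG) ψ P (Pi.single i.1 (i.2.1 : F)) (gx S st.beta t) = 1 := by
  set φ : st.Co → F := Pi.single i.1 (i.2.1 : F) with hφ
  have hm : mult hp φ = 1 := by
    obtain ⟨g, B, a, ha, hB, -, -, -, hsingle, -⟩ := transport ok hG i.1
    rw [← hB.mult_eq hp, hφ, hsingle, mult_single_top ok hG hp (mul_ne_zero ha i.2.1.ne_zero), h.one]
  simp only [chkBeta, Bool.and_eq_true, List.all_eq_true, List.contains_iff_mem] at hb
  have hβ : st.beta ∈ st.lev := hb.1
  have hfixall : ∀ β ∈ st.lev, st.fixes D β i.1 = true → ∀ u : F, bx D st β u φ = φ := by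
    intro β hβ' hf u
    simp only [Step.fixes, List.all_eq_true, decide_eq_true_eq, List.mem_finRange, forall_const] at hf
    funext r
    rw [bx, hφ, Finset.sum_eq_single i.1 (fun j _ hj => by rw [Pi.single_eq_of_ne hj, mul_zero])
      (fun h' => absurd (Finset.mem_univ _) h'), hf r]
    simp
  simp only [chkWit, List.all_eq_true] at hw
  have h1 := hw i.1 (List.mem_finRange _)
  simp only [← comm_eq ok.shape] at h1
  rw [hfix] at h1
  simp only [Bool.not_true, Bool.false_or] at h1
  set e := st.wit.getD i.1 (false, 0, 0)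
  split at h1
  · simp only [Bool.and_eq_true, decide_eq_true_eq, List.contains_iff_mem] at h1
    obtain ⟨⟨⟨⟨⟨⟨m1, m2⟩, f1⟩, f2⟩, d1⟩, d2⟩, h7⟩ := h1
    split at h7
    · next x C hC =>
      simp only [Bool.and_eq_true, decide_eq_true_eq] at h7
      obtain ⟨rfl, hC'⟩ := h7
      have hC0 : (C : F) ≠ 0 := by rcases hC' with rfl | rfl <;> simp
      have he := gx_swap_of_single S (lev_lt ok.shape m1) (lev_lt ok.shape m2) d1 d2 hC (-(t / (C : F))) 1
      rw [show -(C : F) * -(t / (C : F)) * 1 = t by field_simp] at he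
      exact lam_eq_one_of_comm hp hm (moves_gx S hG ok.normal ok.shape m2 _)
        (moves_gx S hG ok.normal ok.shape m1 _) (moves_gx S hG ok.normal ok.shape hβ _)
        (hfixall _ m2 f2 _) (hfixall _ m1 f1 _) (hfixall _ hβ hfix _) he
    · exact absurd h7 Bool.false_ne_true
  · simp only [Bool.and_eq_true, decide_eq_true_eq, Bool.not_eq_true'] at h1
    obtain ⟨⟨⟨hsp, hlt⟩, hs0⟩, hs1⟩ := h1
    have h3 : 3 ≤ Fintype.card F := hsq.resolve_left (by rw [hsp]; exact Bool.false_ne_true)
    have hscale : ∀ (μ : Fˣ) (a : F), lam R (uM S ok.shape hG) ψ P φ (gx S st.beta ((μ : F) * a)) =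
        lam R (uM S ok.shape hG) ψ P φ (gx S st.beta a) := by
      intro μ a
      set ν : Fˣ := μ ^ D.pairing e.2.1 st.beta
      have hν : ν ^ D.pairing e.2.1 st.beta = μ := by
        rw [← _root_.zpow_mul]
        rcases hs1 with e | e <;> rw [e] <;> simp
      have hfx : bt D st (hGam (D := D) e.2.1 ν) φ = φ := by
        funext r
        by_cases hr : r = i.1
        · subst hr; rw [bt, torusVal_hGam S, hs0, zpow_zero]; simp
        · rw [bt, hφ, Pi.single_eq_of_ne hr, mul_zero]
      have he := gt_gx S (hGam (D := D) e.2.1 ν) (lev_lt ok.shape hβ) a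
      rw [torusVal_hGam S, hν] at he
      exact lam_eq_of_scale hp hm (moves_gt S hG ok.shape _) (moves_gx S hG ok.normal ok.shape hβ a)
        hfx (hfixall _ hβ hfix _) he
    obtain ⟨ν, hν0, hν1⟩ := exists_ne_zero_ne_neg_one h3
    have h2 := lam_mul hp hm (g := gx S st.beta t) (moves_gx S hG ok.normal ok.shape hβ (ν * t))
      (hfixall _ hβ hfix _)
    rw [gx_add, show t + ν * t = ((Units.mk0 _ hν1 : Fˣ) : F) * t by rw [Units.val_mk0]; ring,
      hscale, show ν * t = ((Units.mk0 ν hν0 : Fˣ) : F) * t from rfl, hscale] at h2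
    exact (mul_eq_left₀ (lam_ne_zero hp hm (moves_gx S hG ok.normal ok.shape hβ t)
      (hfixall _ hβ hfix _))).1 h2.symm

include hG in
theorem trace_beta_cell (h : Simple1 ok hG hp) {split : Bool} (hsq : split = true ∨ 3 ≤ Fintype.card F)
    (hb : chkBeta D st = true) (hw : chkWit D st split = true) (i : CellIdx D F st) {t : F}
    (ht : t ≠ 0) :
    (R (gx S st.beta t) * proj (uM S ok.shape hG) ψ P (cell i)).trace =
      if st.fixes D st.beta i.1 = true then 1 else 0 := by
  have hβ : st.beta ∈ st.lev := by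
    simp only [chkBeta, Bool.and_eq_true, List.contains_iff_mem] at hb
    exact hb.1
  rw [cell, (moves_lmove ok hG _ fun e he => (cellList_mem i e he).2).trace_proj_mul (ψ := ψ)
    (commute_list ok hb i t).eq]
  split_ifs with hfix
  · exact lam_beta ok hG hp h hsq hb hw i hfix t
  · exact (moves_gx S hG ok.normal ok.shape hβ t).trace_eq_zero hp
      (fun e => hfix ((fixes_iff ok hβ i.1 i.2.1.ne_zero ht).1 e))

include hG in
/-- The deficiency of a root element of the Levi factor splits over the cells. -/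
theorem deficiency_split (h : Simple1 ok hG hp) {split : Bool}
    (hsq : split = true ∨ 3 ≤ Fintype.card F) (hb : chkBeta D st = true)
    (hw : chkWit D st split = true) {t : F} (ht : t ≠ 0) :
    P.trace - (R (gx S st.beta t) * P).trace =
      (nextP D S R ok.shape ψ P hG).trace -
          (R (gx S st.beta t) * nextP D S R ok.shape ψ P hG).trace +
        ((Fintype.card F - 1) * (((st.movedList D).map fun s => (st.low D s).length).map
          fun e => Fintype.card F ^ e).sum : ℕ) := by
  rw [trace_eq_next ok hG hp h, trace_mul_split ok hG hp h,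
    Finset.sum_congr rfl (fun i _ => trace_beta_cell ok hG hp h hsq hb hw i ht),
    Finset.sum_boole]
  have hcard : (Fintype.card (CellIdx D F st) : ℂ) =
      ((Finset.univ.filter fun i : CellIdx D F st => st.fixes D st.beta i.1 = true).card : ℂ) +
      ((Finset.univ.filter fun i : CellIdx D F st => (!st.fixes D st.beta i.1) = true).card : ℂ) := by
    rw [← Nat.cast_add, ← Finset.card_univ, ← Finset.card_filter_add_card_filter_not
      (fun i : CellIdx D F st => st.fixes D st.beta i.1 = true)]
    simp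
  rw [hcard, card_cells_filter (fun s => !st.fixes D st.beta s)]
  simp only [Step.movedList]
  push_cast
  ring

end CfsgLib.E8Deg
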